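import Cfsg.Agent.H23.D4Inv.Heis

/-!
# The action on the radical, and the shape of the positive unipotent subgroup
-/

set_option autoImplicit false
set_option maxRecDepth 4000

namespace Cfsg.Agent.H23.D4Inv

open Cfsg.Lie Cfsg.Agent.H46
open scoped Matrix MatrixGroups

variable {K : Type*} [Field K] [CharP K 2]

theorem X_conj_swap {p r : ℕ} (w : ℕ) (h : r < 24 ∧ p < 24 ∧ p ≠ r ∧ p ≠ chevD4.neg r ∧
      (chevD4.commTerms r p = [(w, 1, 1, 1)] ∨ chevD4.commTerms r p = [(w, -1, 1, 1)]))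
    (hw : w < 24 ∧ p ≠ chevD4.neg w ∧ chevD4.commTerms w p = []) (s t : K) :
    MulAut.conj (X p s) (X r t) = X r t * X w (t * s) := by
  rw [MulAut.conj_apply, X_inv, X_swap w h, mul_assoc (X r t * X p s),
    (X_comm ⟨hw.1, h.2.1, hw.2.1, hw.2.2⟩ _ s).eq, ← mul_assoc, mul_assoc (X r t), X_mul, CharTwo.add_self_eq_zero,
    X_zero, mul_one]

theorem X_conj_fix {p r : ℕ} (h : p < 24 ∧ r < 24 ∧ r ≠ chevD4.neg p ∧ chevD4.commTerms p r = []) (s t : K) :
    MulAut.conj (X p s) (X r t) = X r t := by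
  rw [MulAut.conj_apply, (X_comm h s t).eq, mul_inv_cancel_right]

namespace V8

/-- Coordinate vectors. -/
def eB (t : K) : V8 K := ⟨t, 0, 0, 0, 0, 0, 0, 0⟩
/-- Coordinate vectors. -/
def eC0 (t : K) : V8 K := ⟨0, t, 0, 0, 0, 0, 0, 0⟩
/-- Coordinate vectors. -/
def eC1 (t : K) : V8 K := ⟨0, 0, t, 0, 0, 0, 0, 0⟩
/-- Coordinate vectors. -/
def eC2 (t : K) : V8 K := ⟨0, 0, 0, t, 0, 0, 0, 0⟩
/-- Coordinate vectors. -/
def eD0 (t : K) : V8 K := ⟨0, 0, 0, 0, t, 0, 0, 0⟩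
/-- Coordinate vectors. -/
def eD1 (t : K) : V8 K := ⟨0, 0, 0, 0, 0, t, 0, 0⟩
/-- Coordinate vectors. -/
def eD2 (t : K) : V8 K := ⟨0, 0, 0, 0, 0, 0, t, 0⟩
/-- Coordinate vectors. -/
def eE (t : K) : V8 K := ⟨0, 0, 0, 0, 0, 0, 0, t⟩

/-- The action of the root 18. -/
def act18 (a : K) (v : V8 K) : V8 K :=
  ⟨v.B, v.C0 + a * v.B, v.C1, v.C2, v.D0, v.D1 + a * v.C2, v.D2 + a * v.C1, v.E + a * v.D0⟩
/-- The action of the root 13. -/
def act13 (b : K) (v : V8 K) : V8 K :=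
  ⟨v.B, v.C0, v.C1 + b * v.B, v.C2, v.D0 + b * v.C2, v.D1, v.D2 + b * v.C0, v.E + b * v.D1⟩
/-- The action of the root 12. -/
def act12 (c : K) (v : V8 K) : V8 K :=
  ⟨v.B, v.C0, v.C1, v.C2 + c * v.B, v.D0 + c * v.C1, v.D1 + c * v.C0, v.D2, v.E + c * v.D2⟩
/-- The action of a Levi unipotent element. -/
def actA (a b c : K) (v : V8 K) : V8 K :=
  ⟨v.B, v.C0 + a * v.B, v.C1 + b * v.B, v.C2 + c * v.B,
    v.D0 + b * v.C2 + c * v.C1 + b * c * v.B, v.D1 + a * v.C2 + c * v.C0 + a * c * v.B,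
    v.D2 + a * v.C1 + b * v.C0 + a * b * v.B,
    v.E + a * v.D0 + b * v.D1 + c * v.D2 + a * b * v.C2 + a * c * v.C1 + b * c * v.C0 + a * b * c * v.B⟩

end V8

open V8

theorem rep_eB (t : K) : Rep (X 14 t) (eB t) := ⟨0, by simp [Phi, P1, P2, eB, X_zero, Xh_zero]⟩
theorem rep_eC0 (t : K) : Rep (X 19 t) (eC0 t) := ⟨0, by simp [Phi, P1, P2, eC0, X_zero, Xh_zero]⟩
theorem rep_eC1 (t : K) : Rep (X 16 t) (eC1 t) := ⟨0, by simp [Phi, P1, P2, eC1, X_zero, Xh_zero]⟩
theorem rep_eC2 (t : K) : Rep (X 15 t) (eC2 t) := ⟨0, by simp [Phi, P1, P2, eC2, X_zero, Xh_zero]⟩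
theorem rep_eD0 (t : K) : Rep (X 17 t) (eD0 t) := ⟨0, by simp [Phi, P1, P2, eD0, X_zero, Xh_zero]⟩
theorem rep_eD1 (t : K) : Rep (X 20 t) (eD1 t) := ⟨0, by simp [Phi, P1, P2, eD1, X_zero, Xh_zero]⟩
theorem rep_eD2 (t : K) : Rep (X 21 t) (eD2 t) := ⟨0, by simp [Phi, P1, P2, eD2, X_zero, Xh_zero]⟩
theorem rep_eE (t : K) : Rep (X 22 t) (eE t) := ⟨0, by simp [Phi, P1, P2, eE, X_zero, Xh_zero]⟩

/-- A homomorphism is known on representatives from its values on the root elements. -/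
theorem Rep.map (φ : GL chevD4.Idx K →* GL chevD4.Idx K) {g : GL chevD4.Idx K} {v : V8 K} (hg : Rep g v)
    {u14 u19 u16 u15 u22 u17 u20 u21 u23 : V8 K}
    (h14 : Rep (φ (X 14 v.B)) u14) (h19 : Rep (φ (X 19 v.C0)) u19) (h16 : Rep (φ (X 16 v.C1)) u16)
    (h15 : Rep (φ (X 15 v.C2)) u15) (h22 : Rep (φ (X 22 v.E)) u22) (h17 : Rep (φ (X 17 v.D0)) u17)
    (h20 : Rep (φ (X 20 v.D1)) u20) (h21 : Rep (φ (X 21 v.D2)) u21) (h23 : ∀ z, Rep (φ (Xh z)) u23) :
    Rep (φ g) (((((u14.add u19).add u16).add u15).add (((u22.add u17).add u20).add u21)).add u23) := by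
  obtain ⟨z, rfl⟩ := hg
  simp only [Phi, P1, P2, map_mul]
  exact ((((h14.mul h19).mul h16).mul h15).mul (((h22.mul h17).mul h20).mul h21)).mul (h23 z)

theorem conj23 {p : ℕ} (h : p < 24 ∧ 23 ≠ chevD4.neg p ∧ chevD4.commTerms p 23 = []) (s z : K) :
    Rep (MulAut.conj (X p s) (Xh z)) V8.zero := by
  rw [X_conj_fix ⟨h.1, by decide, h.2.1, h.2.2⟩]
  exact Rep.central z

theorem Rep.conj18 {g : GL chevD4.Idx K} {v : V8 K} (hg : Rep g v) (a : K) :
    Rep (MulAut.conj (X 18 a) g) (act18 a v) := by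
  have h := hg.map (MulAut.conj (X 18 a)).toMonoidHom
    (u14 := (eB v.B).add (eC0 (v.B * a))) (u19 := eC0 v.C0) (u16 := (eC1 v.C1).add (eD2 (v.C1 * a)))
    (u15 := (eC2 v.C2).add (eD1 (v.C2 * a))) (u22 := eE v.E) (u17 := (eD0 v.D0).add (eE (v.D0 * a)))
    (u20 := eD1 v.D1) (u21 := eD2 v.D2) (u23 := V8.zero) ?_ ?_ ?_ ?_ ?_ ?_ ?_ ?_ ?_
  · convert h using 1
    all_goals first
      | rfl
      | (apply V8.ext <;> simp only [act18, V8.add, V8.zero, eB, eC0, eC1, eC2, eD0, eD1, eD2, eE] <;> ring)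
  all_goals simp only [MulEquiv.coe_toMonoidHom]
  · rw [X_conj_swap 19 (by decide +kernel) (by decide +kernel)]
    exact (rep_eB _).mul (rep_eC0 _)
  · rw [X_conj_fix (by decide +kernel)]; exact rep_eC0 _
  · rw [X_conj_swap 21 (by decide +kernel) (by decide +kernel)]
    exact (rep_eC1 _).mul (rep_eD2 _)
  · rw [X_conj_swap 20 (by decide +kernel) (by decide +kernel)]
    exact (rep_eC2 _).mul (rep_eD1 _)
  · rw [X_conj_fix (by decide +kernel)]; exact rep_eE _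
  · rw [X_conj_swap 22 (by decide +kernel) (by decide +kernel)]
    exact (rep_eD0 _).mul (rep_eE _)
  · rw [X_conj_fix (by decide +kernel)]; exact rep_eD1 _
  · rw [X_conj_fix (by decide +kernel)]; exact rep_eD2 _
  · exact conj23 (by decide +kernel) a

theorem Rep.conj13 {g : GL chevD4.Idx K} {v : V8 K} (hg : Rep g v) (b : K) :
    Rep (MulAut.conj (X 13 b) g) (act13 b v) := by
  have h := hg.map (MulAut.conj (X 13 b)).toMonoidHom
    (u14 := (eB v.B).add (eC1 (v.B * b))) (u19 := (eC0 v.C0).add (eD2 (v.C0 * b))) (u16 := eC1 v.C1)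
    (u15 := (eC2 v.C2).add (eD0 (v.C2 * b))) (u22 := eE v.E) (u17 := eD0 v.D0)
    (u20 := (eD1 v.D1).add (eE (v.D1 * b))) (u21 := eD2 v.D2) (u23 := V8.zero) ?_ ?_ ?_ ?_ ?_ ?_ ?_ ?_ ?_
  · convert h using 1
    all_goals first
      | rfl
      | (apply V8.ext <;> simp only [act13, V8.add, V8.zero, eB, eC0, eC1, eC2, eD0, eD1, eD2, eE] <;> ring)
  all_goals simp only [MulEquiv.coe_toMonoidHom]
  · rw [X_conj_swap 16 (by decide +kernel) (by decide +kernel)]
    exact (rep_eB _).mul (rep_eC1 _)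
  · rw [X_conj_swap 21 (by decide +kernel) (by decide +kernel)]
    exact (rep_eC0 _).mul (rep_eD2 _)
  · rw [X_conj_fix (by decide +kernel)]; exact rep_eC1 _
  · rw [X_conj_swap 17 (by decide +kernel) (by decide +kernel)]
    exact (rep_eC2 _).mul (rep_eD0 _)
  · rw [X_conj_fix (by decide +kernel)]; exact rep_eE _
  · rw [X_conj_fix (by decide +kernel)]; exact rep_eD0 _
  · rw [X_conj_swap 22 (by decide +kernel) (by decide +kernel)]
    exact (rep_eD1 _).mul (rep_eE _)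
  · rw [X_conj_fix (by decide +kernel)]; exact rep_eD2 _
  · exact conj23 (by decide +kernel) b

theorem Rep.conj12 {g : GL chevD4.Idx K} {v : V8 K} (hg : Rep g v) (c : K) :
    Rep (MulAut.conj (X 12 c) g) (act12 c v) := by
  have h := hg.map (MulAut.conj (X 12 c)).toMonoidHom
    (u14 := (eB v.B).add (eC2 (v.B * c))) (u19 := (eC0 v.C0).add (eD1 (v.C0 * c)))
    (u16 := (eC1 v.C1).add (eD0 (v.C1 * c))) (u15 := eC2 v.C2) (u22 := eE v.E) (u17 := eD0 v.D0)
    (u20 := eD1 v.D1) (u21 := (eD2 v.D2).add (eE (v.D2 * c))) (u23 := V8.zero) ?_ ?_ ?_ ?_ ?_ ?_ ?_ ?_ ?_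
  · convert h using 1
    all_goals first
      | rfl
      | (apply V8.ext <;> simp only [act12, V8.add, V8.zero, eB, eC0, eC1, eC2, eD0, eD1, eD2, eE] <;> ring)
  all_goals simp only [MulEquiv.coe_toMonoidHom]
  · rw [X_conj_swap 15 (by decide +kernel) (by decide +kernel)]
    exact (rep_eB _).mul (rep_eC2 _)
  · rw [X_conj_swap 20 (by decide +kernel) (by decide +kernel)]
    exact (rep_eC0 _).mul (rep_eD1 _)
  · rw [X_conj_swap 17 (by decide +kernel) (by decide +kernel)]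
    exact (rep_eC1 _).mul (rep_eD0 _)
  · rw [X_conj_fix (by decide +kernel)]; exact rep_eC2 _
  · rw [X_conj_fix (by decide +kernel)]; exact rep_eE _
  · rw [X_conj_fix (by decide +kernel)]; exact rep_eD0 _
  · rw [X_conj_fix (by decide +kernel)]; exact rep_eD1 _
  · rw [X_conj_swap 22 (by decide +kernel) (by decide +kernel)]
    exact (rep_eD2 _).mul (rep_eE _)
  · exact conj23 (by decide +kernel) c

/-- A unipotent Levi element. -/
noncomputable def Aelt (a b c : K) : GL chevD4.Idx K := X 18 a * X 13 b * X 12 c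

theorem Rep.conjA {g : GL chevD4.Idx K} {v : V8 K} (hg : Rep g v) (a b c : K) :
    Rep (MulAut.conj (Aelt a b c) g) (actA a b c v) := by
  have h := ((hg.conj12 c).conj13 b).conj18 a
  convert h using 1
  · simp [Aelt, map_mul]
  · ext <;> simp only [actA, act18, act13, act12] <;> ring

theorem Aelt_mul (a b c a' b' c' : K) : Aelt a b c * Aelt a' b' c' = Aelt (a + a') (b + b') (c + c') := by
  rw [Aelt, Aelt, Aelt, ← X_mul 18, ← X_mul 13, ← X_mul 12]
  have e1 : Commute (X 13 b * X 12 c) (X 18 a') :=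
    (X_comm (by decide +kernel) _ _).mul_left (X_comm (by decide +kernel) _ _)
  have e2 : Commute (X 12 c) (X 13 b') := X_comm (by decide +kernel) _ _
  calc X 18 a * X 13 b * X 12 c * (X 18 a' * X 13 b' * X 12 c')
      = X 18 a * ((X 13 b * X 12 c) * X 18 a') * X 13 b' * X 12 c' := by simp only [mul_assoc]
    _ = X 18 a * X 18 a' * X 13 b * (X 12 c * X 13 b') * X 12 c' := by rw [e1.eq]; simp only [mul_assoc]
    _ = _ := by rw [e2.eq]; simp only [mul_assoc]

theorem Aelt_zero : Aelt (0 : K) 0 0 = 1 := by simp [Aelt, X_zero]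

theorem Aelt_sq (a b c : K) : Aelt a b c * Aelt a b c = 1 := by
  rw [Aelt_mul, CharTwo.add_self_eq_zero, CharTwo.add_self_eq_zero, CharTwo.add_self_eq_zero, Aelt_zero]

theorem Aelt_inv (a b c : K) : (Aelt a b c)⁻¹ = Aelt a b c := inv_eq_of_mul_eq_one_right (Aelt_sq a b c)

/-- Representatives determine their coordinates. -/
theorem rep_zero_unique {v : V8 K} (h : Rep (1 : GL chevD4.Idx K) v) : v = V8.zero := by
  have key : ∀ w : V8 K, v.pair w + w.pair v = 0 := by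
    intro w
    obtain ⟨z, hz⟩ := h
    have hv : Phi v = Xh z := by rw [eq_mul_inv_of_mul_eq hz.symm, one_mul, X_inv]
    have h1 : Phi v * Phi w = Phi w * Phi v := by rw [hv]; exact (hc_Phi z w).eq
    rw [Phi_mul, Phi_mul, show w.add v = v.add w by ext <;> exact add_comm _ _] at h1
    rw [goodD4.xg_injective (show 23 < chevD4.nroots by decide) (mul_left_cancel h1), CharTwo.add_self_eq_zero]
  ext
  · simpa [pair, eE, V8.zero] using key (eE 1)
  · simpa [pair, eD0, V8.zero] using key (eD0 1)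
  · simpa [pair, eD1, V8.zero] using key (eD1 1)
  · simpa [pair, eD2, V8.zero] using key (eD2 1)
  · simpa [pair, eC0, V8.zero] using key (eC0 1)
  · simpa [pair, eC1, V8.zero] using key (eC1 1)
  · simpa [pair, eC2, V8.zero] using key (eC2 1)
  · simpa [pair, eB, V8.zero] using key (eB 1)

theorem Rep.unique {g : GL chevD4.Idx K} {v w : V8 K} (hv : Rep g v) (hw : Rep g w) : v = w := by
  have h := rep_zero_unique (v := v.add w) (by have := hv.mul hw.inv; rwa [mul_inv_cancel] at this)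
  have e : ∀ x y : K, x + y = 0 → x = y := fun x y hxy => (CharTwo.add_eq_zero.1 hxy)
  rw [V8.ext_iff] at h ⊢
  exact ⟨e _ _ h.1, e _ _ h.2.1, e _ _ h.2.2.1, e _ _ h.2.2.2.1, e _ _ h.2.2.2.2.1, e _ _ h.2.2.2.2.2.1,
    e _ _ h.2.2.2.2.2.2.1, e _ _ h.2.2.2.2.2.2.2⟩

theorem Aelt_rep_zero {a b c : K} {v : V8 K} (h : Rep (Aelt a b c) v) : a = 0 ∧ b = 0 ∧ c = 0 := by
  have hB := (rep_eB (1 : K)).conjA a b c
  rw [MulAut.conj_apply] at hB
  have h2 := (h.mul (rep_eB (1 : K))).mul h.inv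
  have e := hB.unique h2
  have e' : (v.add (eB 1)).add v = eB 1 := by
    ext <;> simp only [V8.add] <;> rw [add_comm, ← add_assoc, CharTwo.add_self_eq_zero, zero_add]
  rw [e'] at e
  simpa [actA, eB, V8.ext_iff] using And.intro (congrArg V8.C0 e) (And.intro (congrArg V8.C1 e) (congrArg V8.C2 e))

/-- Every positive unipotent element is a Levi element times a radical element. -/
theorem exists_decomp {g : GL chevD4.Idx K} (hg : g ∈ chevD4.posUnipotent K) :
    ∃ a b c q v, g = Aelt a b c * q ∧ Rep q v := by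
  rw [goodD4.posUnipotent_eq, Good.posSub] at hg
  induction hg using Subgroup.closure_induction with
  | mem x hx =>
    obtain ⟨r, t, ⟨hr, -⟩, rfl⟩ := hx
    have h1 := (goodD4.isPosRoot_iff.1 hr).1
    have h2 : r < 24 := hr.1
    have hq : ∀ {x : GL chevD4.Idx K} {v : V8 K}, Rep x v →
        ∃ a b c q v, x = Aelt a b c * q ∧ Rep q v := fun h => ⟨0, 0, 0, _, _, by rw [Aelt_zero, one_mul], h⟩
    have h1' : 12 ≤ r := h1
    interval_cases r
    · exact ⟨0, 0, t, 1, _, by simp [Aelt, X_zero], Rep.one⟩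
    · exact ⟨0, t, 0, 1, _, by simp [Aelt, X_zero], Rep.one⟩
    · exact hq (rep_eB t)
    · exact hq (rep_eC2 t)
    · exact hq (rep_eC1 t)
    · exact hq (rep_eD0 t)
    · exact ⟨t, 0, 0, 1, _, by simp [Aelt, X_zero], Rep.one⟩
    · exact hq (rep_eC0 t)
    · exact hq (rep_eD1 t)
    · exact hq (rep_eD2 t)
    · exact hq (rep_eE t)
    · exact hq (Rep.central t)
  | one => exact ⟨0, 0, 0, 1, _, by rw [Aelt_zero, one_mul], Rep.one⟩
  | mul x y _ _ ihx ihy =>
    obtain ⟨a, b, c, q, v, rfl, hq⟩ := ihx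
    obtain ⟨a', b', c', q', v', rfl, hq'⟩ := ihy
    refine ⟨a + a', b + b', c + c', MulAut.conj (Aelt a' b' c') q * q', _, ?_, (hq.conjA a' b' c').mul hq'⟩
    rw [← Aelt_mul, MulAut.conj_apply, Aelt_inv]
    simp only [mul_assoc]
    rw [← mul_assoc (Aelt a' b' c') (Aelt a' b' c') (q * (Aelt a' b' c' * q')), Aelt_sq, one_mul]
  | inv x _ ih =>
    obtain ⟨a, b, c, q, v, rfl, hq⟩ := ih
    refine ⟨a, b, c, MulAut.conj (Aelt a b c) q⁻¹, _, ?_, hq.inv.conjA a b c⟩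
    rw [mul_inv_rev, Aelt_inv, MulAut.conj_apply, Aelt_inv, ← mul_assoc, ← mul_assoc, Aelt_sq, one_mul]

/-- Conjugation by the representative of a fundamental reflection. -/
theorem weyl_conj (i : ℕ) {r : ℕ} (w : ℕ) (h : i < 4 ∧ r < 24 ∧ chevD4.reflectRoot i r = w) (t : K) :
    MulAut.conj (goodD4.ng (chevD4.simple i) (1 : K)) (X r t) = X w t := by
  rw [MulAut.conj_apply, goodD4.ng_simple_mul_xg h.1 h.2.1, mul_inv_cancel_right, h.2.2]
  congr 1
  have he := goodD4.eta_cast_sq (F := K) i r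
  have e0 : ((goodD4.tab.eta i r : ℤ) : K) = 1 := by
    rcases mul_self_eq_one_iff.1 he with e | e
    · exact e
    · rw [e, CharTwo.neg_eq]
  rw [e0, one_mul]

end Cfsg.Agent.H23.D4Inv
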