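import Cfsg.Agent.H46.TwistD4

/-!
# The maximal parabolic radical of D₄ at the central node, in characteristic two

`Phi v` is the product over the eight roots of the radical other than the highest one, `Xh z` the highest root element,
and `Rep g v` says that `g` is `Phi v` times a highest root element.
-/

set_option autoImplicit false
set_option maxRecDepth 4000

namespace Cfsg.Agent.H23.D4Inv

open Cfsg.Lie Cfsg.Agent.H46
open scoped Matrix MatrixGroups

variable {K : Type*} [Field K] [CharP K 2]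

/-- A root element of D₄. -/
noncomputable abbrev X (r : ℕ) (t : K) : GL chevD4.Idx K := goodD4.xg r t

/-- The highest root element. -/
noncomputable abbrev Xh (z : K) : GL chevD4.Idx K := X 23 z

theorem X_mul (r : ℕ) (t u : K) : X r t * X r u = X r (t + u) := goodD4.xg_add r t u

theorem X_zero (r : ℕ) : X r (0 : K) = 1 := goodD4.xg_zero r

theorem Xh_zero : Xh (0 : K) = 1 := X_zero 23

theorem Xh_mul (t u : K) : Xh t * Xh u = Xh (t + u) := X_mul 23 t u

theorem X_inv (r : ℕ) (t : K) : (X r t)⁻¹ = X r t := by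
  rw [X, goodD4.xg_inv, CharTwo.neg_eq]

theorem X_comm {r s : ℕ} (h : r < 24 ∧ s < 24 ∧ s ≠ chevD4.neg r ∧ chevD4.commTerms r s = []) (t u : K) :
    Commute (X r t) (X s u) :=
  Good.xg_commute goodD4 h.1 h.2.1 h.2.2.1 h.2.2.2 t u

theorem X_swap {r s : ℕ} (w : ℕ)
    (h : r < 24 ∧ s < 24 ∧ s ≠ r ∧ s ≠ chevD4.neg r ∧
      (chevD4.commTerms r s = [(w, 1, 1, 1)] ∨ chevD4.commTerms r s = [(w, -1, 1, 1)])) (t u : K) :
    X s u * X r t = X r t * X s u * X w (t * u) := by
  obtain ⟨h1, h2, h3, h4, h5⟩ := h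
  apply Units.ext
  rw [Units.val_mul, Units.val_mul, Units.val_mul, goodD4.coe_xg, goodD4.coe_xg, goodD4.coe_xg,
    goodD4.x_mul_x h1 h2 h3 h4]
  rcases h5 with e | e <;>
    simp [ChevalleyDatum.commWord, e, wordMat_singleton, CharTwo.neg_eq]

theorem hc (z : K) {r : ℕ} (t : K) (h : r < 24 ∧ r ≠ chevD4.neg 23 ∧ chevD4.commTerms 23 r = [] := by decide +kernel) :
    Commute (Xh z) (X r t) :=
  X_comm ⟨by decide, h.1, h.2.1, h.2.2⟩ z t

/-- Coordinates. -/
@[ext] structure V8 (K : Type*) where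
  /-- root 14 -/
  B : K
  /-- root 19 -/
  C0 : K
  /-- root 16 -/
  C1 : K
  /-- root 15 -/
  C2 : K
  /-- root 17 -/
  D0 : K
  /-- root 20 -/
  D1 : K
  /-- root 21 -/
  D2 : K
  /-- root 22 -/
  E : K

namespace V8

/-- Sum. -/
def add (v w : V8 K) : V8 K :=
  ⟨v.B + w.B, v.C0 + w.C0, v.C1 + w.C1, v.C2 + w.C2, v.D0 + w.D0, v.D1 + w.D1, v.D2 + w.D2, v.E + w.E⟩

/-- Zero. -/
def zero : V8 K := ⟨0, 0, 0, 0, 0, 0, 0, 0⟩

/-- The pairing of the two halves. -/
def pair (v w : V8 K) : K := v.E * w.B + v.D0 * w.C0 + v.D1 * w.C1 + v.D2 * w.C2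

/-- The quadratic form. -/
def quad (v : V8 K) : K := pair v v

end V8

/-- The lower half. -/
noncomputable def P1 (v : V8 K) : GL chevD4.Idx K := X 14 v.B * X 19 v.C0 * X 16 v.C1 * X 15 v.C2

/-- The upper half. -/
noncomputable def P2 (v : V8 K) : GL chevD4.Idx K := X 22 v.E * X 17 v.D0 * X 20 v.D1 * X 21 v.D2

/-- The eight-root product. -/
noncomputable def Phi (v : V8 K) : GL chevD4.Idx K := P1 v * P2 v

theorem hc_P1 (z : K) (v : V8 K) : Commute (Xh z) (P1 v) :=
  (((hc z _).mul_right (hc z _)).mul_right (hc z _)).mul_right (hc z _)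

theorem hc_P2 (z : K) (v : V8 K) : Commute (Xh z) (P2 v) :=
  (((hc z _).mul_right (hc z _)).mul_right (hc z _)).mul_right (hc z _)

theorem hc_Phi (z : K) (v : V8 K) : Commute (Xh z) (Phi v) := (hc_P1 z v).mul_right (hc_P2 z v)

theorem four_mul {M : Type*} [Monoid M] {a b c d a' b' c' d' : M} (h1 : Commute d a') (h2 : Commute c a')
    (h3 : Commute b a') (h4 : Commute d b') (h5 : Commute c b') (h6 : Commute d c') :
    a * b * c * d * (a' * b' * c' * d') = a * a' * (b * b') * (c * c') * (d * d') := by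
  have e1 : b * c * d * a' = a' * (b * c * d) := ((h3.mul_left h2).mul_left h1).eq
  have e2 : c * d * b' = b' * (c * d) := (h5.mul_left h4).eq
  have e3 : d * c' = c' * d := h6.eq
  calc a * b * c * d * (a' * b' * c' * d') = a * (b * c * d * a') * b' * c' * d' := by simp only [mul_assoc]
    _ = a * a' * b * (c * d * b') * c' * d' := by rw [e1]; simp only [mul_assoc]
    _ = a * a' * (b * b') * c * (d * c') * d' := by rw [e2]; simp only [mul_assoc]
    _ = _ := by rw [e3]; simp only [mul_assoc]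

theorem P1_mul (v w : V8 K) : P1 v * P1 w = P1 (v.add w) := by
  rw [P1, P1, P1, four_mul (X_comm (by decide +kernel) _ _) (X_comm (by decide +kernel) _ _)
    (X_comm (by decide +kernel) _ _) (X_comm (by decide +kernel) _ _) (X_comm (by decide +kernel) _ _)
    (X_comm (by decide +kernel) _ _), X_mul, X_mul, X_mul, X_mul]
  rfl

theorem P2_mul (v w : V8 K) : P2 v * P2 w = P2 (v.add w) := by
  rw [P2, P2, P2, four_mul (X_comm (by decide +kernel) _ _) (X_comm (by decide +kernel) _ _)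
    (X_comm (by decide +kernel) _ _) (X_comm (by decide +kernel) _ _) (X_comm (by decide +kernel) _ _)
    (X_comm (by decide +kernel) _ _), X_mul, X_mul, X_mul, X_mul]
  rfl

/-- `x` moves past `y` at the price of a highest root element. -/
def Sw (x y : GL chevD4.Idx K) (z : K) : Prop := x * y = y * x * Xh z

theorem Sw.of_comm {x y : GL chevD4.Idx K} (h : Commute x y) : Sw x y 0 := by
  rw [Sw, Xh_zero, mul_one, h.eq]

theorem Sw.mul_right {x y y' : GL chevD4.Idx K} {z z' : K} (h : Sw x y z) (h' : Sw x y' z')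
    (hy : ∀ w, Commute (Xh w) y') : Sw x (y * y') (z + z') := by
  rw [Sw] at *
  rw [← mul_assoc, h, mul_assoc, (hy z).eq, ← mul_assoc, mul_assoc y x y', h', ← mul_assoc, ← mul_assoc,
    mul_assoc _ (Xh z') (Xh z), X_mul, add_comm]

theorem Sw.mul_left {x x' y : GL chevD4.Idx K} {z z' : K} (h : Sw x y z) (h' : Sw x' y z')
    (hx : ∀ w, Commute (Xh w) x') : Sw (x * x') y (z + z') := by
  rw [Sw] at *
  rw [mul_assoc, h', ← mul_assoc, ← mul_assoc, h, mul_assoc (y * x) (Xh z), (hx z).eq, ← mul_assoc,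
    ← mul_assoc, mul_assoc _ (Xh z) (Xh z'), X_mul]

theorem swap_halves (v w : V8 K) : Sw (P2 v) (P1 w) (v.pair w) := by
  have k14 : Sw (X 22 v.E) (X 14 w.B) (w.B * v.E) := X_swap 23 (by decide +kernel) _ _
  have k19 : Sw (X 17 v.D0) (X 19 w.C0) (w.C0 * v.D0) := X_swap 23 (by decide +kernel) _ _
  have k16 : Sw (X 20 v.D1) (X 16 w.C1) (w.C1 * v.D1) := X_swap 23 (by decide +kernel) _ _
  have k15 : Sw (X 21 v.D2) (X 15 w.C2) (w.C2 * v.D2) := X_swap 23 (by decide +kernel) _ _
  have z0 : ∀ {r s : ℕ}, (r < 24 ∧ s < 24 ∧ s ≠ chevD4.neg r ∧ chevD4.commTerms r s = []) → ∀ t u : K,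
      Sw (X r t) (X s u) 0 := fun h t u => Sw.of_comm (X_comm h t u)
  have r22 : Sw (X 22 v.E) (P1 w) (w.B * v.E + 0 + 0 + 0) :=
    (((k14.mul_right (z0 (by decide +kernel) _ _) fun z => hc z _).mul_right (z0 (by decide +kernel) _ _)
      fun z => hc z _).mul_right (z0 (by decide +kernel) _ _) fun z => hc z _)
  have r17 : Sw (X 17 v.D0) (P1 w) (0 + w.C0 * v.D0 + 0 + 0) :=
    ((((z0 (by decide +kernel) _ _).mul_right k19 fun z => hc z _).mul_right (z0 (by decide +kernel) _ _)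
      fun z => hc z _).mul_right (z0 (by decide +kernel) _ _) fun z => hc z _)
  have r20 : Sw (X 20 v.D1) (P1 w) (0 + 0 + w.C1 * v.D1 + 0) :=
    ((((z0 (by decide +kernel) _ _).mul_right (z0 (by decide +kernel) _ _) fun z => hc z _).mul_right k16
      fun z => hc z _).mul_right (z0 (by decide +kernel) _ _) fun z => hc z _)
  have r21 : Sw (X 21 v.D2) (P1 w) (0 + 0 + 0 + w.C2 * v.D2) :=
    ((((z0 (by decide +kernel) _ _).mul_right (z0 (by decide +kernel) _ _) fun z => hc z _).mul_right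
      (z0 (by decide +kernel) _ _) fun z => hc z _).mul_right k15 fun z => hc z _)
  have h := ((r22.mul_left r17 fun z => hc z _).mul_left r20 fun z => hc z _).mul_left r21 fun z => hc z _
  convert h using 1
  · rfl
  · simp only [V8.pair]; ring

theorem Phi_mul (v w : V8 K) : Phi v * Phi w = Phi (v.add w) * Xh (v.pair w) := by
  have h : P2 v * P1 w = P1 w * P2 v * Xh (v.pair w) := swap_halves v w
  rw [Phi, Phi, Phi, ← mul_assoc (P1 v * P2 v), mul_assoc (P1 v) (P2 v), h, ← P1_mul, ← P2_mul]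
  simp only [mul_assoc]
  rw [(hc_P2 (v.pair w) w).eq]

theorem add_self (v : V8 K) : v.add v = V8.zero := by
  ext <;> exact CharTwo.add_self_eq_zero _

theorem Phi_zero : Phi (V8.zero : V8 K) = 1 := by
  simp [Phi, P1, P2, V8.zero, X_zero]

theorem Phi_sq (v : V8 K) : Phi v * Phi v = Xh v.quad := by
  rw [Phi_mul, add_self, Phi_zero, one_mul, V8.quad]

/-- `g` is `Phi v` up to the highest root group. -/
def Rep (g : GL chevD4.Idx K) (v : V8 K) : Prop := ∃ z, g = Phi v * Xh z

theorem Rep.mul {g h : GL chevD4.Idx K} {v w : V8 K} (hg : Rep g v) (hh : Rep h w) :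
    Rep (g * h) (v.add w) := by
  obtain ⟨a, rfl⟩ := hg
  obtain ⟨b, rfl⟩ := hh
  refine ⟨v.pair w + a + b, ?_⟩
  rw [mul_assoc (Phi v), ← mul_assoc (Xh a), (hc_Phi a w).eq, mul_assoc (Phi w), ← mul_assoc (Phi v), Phi_mul,
    X_mul, mul_assoc, X_mul, add_assoc]

theorem Rep.central (z : K) : Rep (Xh z) V8.zero := ⟨z, by rw [Phi_zero, one_mul]⟩

theorem Rep.one : Rep (1 : GL chevD4.Idx K) V8.zero := ⟨0, by rw [Phi_zero, Xh_zero, one_mul]⟩

theorem add_zero' (v : V8 K) : v.add V8.zero = v := by ext <;> exact add_zero _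

theorem zero_add' (v : V8 K) : V8.zero.add v = v := by ext <;> exact zero_add _

theorem Rep.inv {g : GL chevD4.Idx K} {v : V8 K} (hg : Rep g v) : Rep g⁻¹ v := by
  obtain ⟨a, rfl⟩ := hg
  refine ⟨v.quad + a, inv_eq_of_mul_eq_one_right ?_⟩
  rw [mul_assoc (Phi v), ← mul_assoc (Xh a), (hc_Phi a v).eq, mul_assoc (Phi v), ← mul_assoc (Phi v), Phi_sq,
    X_mul, X_mul]
  convert X_zero (K := K) 23 using 2
  rw [add_left_comm a, ← add_assoc, CharTwo.add_self_eq_zero, zero_add, CharTwo.add_self_eq_zero]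

theorem Rep.sq {g : GL chevD4.Idx K} {v : V8 K} (hg : Rep g v) : g * g = Xh v.quad := by
  obtain ⟨a, rfl⟩ := hg
  rw [mul_assoc (Phi v), ← mul_assoc (Xh a), (hc_Phi a v).eq, mul_assoc (Phi v), ← mul_assoc (Phi v), Phi_sq,
    Xh_mul, CharTwo.add_self_eq_zero, Xh_zero, mul_one]

theorem quad_eq_zero_of_sq {g : GL chevD4.Idx K} {v : V8 K} (hg : Rep g v) (h : g * g = 1) : v.quad = 0 := by
  rw [hg.sq] at h
  exact (goodD4.xg_eq_one_iff (show 23 < chevD4.nroots by decide) _).1 h

end Cfsg.Agent.H23.D4Inv
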