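import Cfsg.Agent.H23.D4Inv.Rank
import Cfsg.Agent.H46.TwistOrder

/-!
# Two classes of involutions in ³D₄(q), q even
-/

set_option autoImplicit false
set_option maxRecDepth 4000

namespace Cfsg.Agent.H23.D4Inv

open Cfsg.Lie Cfsg.Agent.H46
open scoped Matrix MatrixGroups

variable {K : Type*} [Field K] [CharP K 2] [Fintype K] {q : ℕ} (f : K →+* K) (hf : ∀ x, f x = x ^ q)
  (hK : Fintype.card K = q ^ 3)

theorem cm_vals : tabD4.cm 0 0 = 2 ∧ tabD4.cm 1 0 = -1 ∧ tabD4.cm 2 0 = 0 ∧ tabD4.cm 3 0 = 0 ∧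
    tabD4.cm 0 1 = -1 ∧ tabD4.cm 1 1 = 2 ∧ tabD4.cm 2 1 = -1 ∧ tabD4.cm 3 1 = -1 ∧
    tabD4.cm 0 2 = 0 ∧ tabD4.cm 1 2 = -1 ∧ tabD4.cm 2 2 = 2 ∧ tabD4.cm 3 2 = 0 ∧
    tabD4.cm 0 3 = 0 ∧ tabD4.cm 1 3 = -1 ∧ tabD4.cm 2 3 = 0 ∧ tabD4.cm 3 3 = 2 ∧
    graphD4.ρF ⟨3, by decide⟩ = ⟨0, by decide⟩ := by
  decide +kernel

omit [Fintype K] in
theorem torus_conj (z : Fin chevD4.rank → Kˣ) (k : Fin chevD4.rank) (t : K) :
    MulAut.conj (goodD4.torus z) (X (chevD4.simple k) t) =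
      X (chevD4.simple k) ((goodD4.torusVal z (chevD4.simple k) : K) * t) := by
  rw [MulAut.conj_apply, X, goodD4.torus_conj_xg z (goodD4.simple_lt k.2) t]

omit [CharP K 2] [Fintype K] in
theorem torusVal_simple (z : Fin chevD4.rank → Kˣ) (k : Fin chevD4.rank) :
    goodD4.torusVal z (chevD4.simple k) = z ⟨0, by decide⟩ ^ tabD4.cm 0 k * z ⟨1, by decide⟩ ^ tabD4.cm 1 k *
      z ⟨2, by decide⟩ ^ tabD4.cm 2 k * z ⟨3, by decide⟩ ^ tabD4.cm 3 k := by
  rw [← goodD4.act_cartT_apply, act]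
  exact Fin.prod_univ_four (fun a => z a ^ cartT chevD4 goodD4.tab k a)

include hf hK

theorem torus_mem {z : Fin chevD4.rank → Kˣ}
    (hz : ∀ k, z (graphD4.ρF k) = Units.map f.toMonoidHom (z k)) : goodD4.torus z ∈ twistedD4 K q := by
  rw [twistedD4_eq f hf hK, tdD4, graphD4.G1_eq_closure okD4 coxD4 f]
  exact graphD4.fixTorus_le_closure okD4 f ⟨z, hz, rfl⟩

theorem h3 (x : K) : f (f (f x)) = x := period_D4 f hf hK x

theorem short_con_one {s : K} (hs : s ≠ 0) : Con q (short s f) (short 1 f) := by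
  obtain ⟨c, hc⟩ : ∃ c : K, c * c = s⁻¹ := by
    have hinj : Function.Injective fun x : K => x * x := fun x y hxy => CharTwo.sq_inj.1 (by simpa [sq] using hxy)
    exact (Finite.injective_iff_surjective.1 hinj) s⁻¹
  have hc0 : c ≠ 0 := by
    rintro rfl
    simp at hc
    exact hs hc.symm
  have hcs : c * c * s = 1 := by rw [hc, inv_mul_cancel₀ hs]
  obtain ⟨r0, r2, r1⟩ := rhoD4
  obtain ⟨a00, a10, a20, a30, a01, a11, a21, a31, a02, a12, a22, a32, a03, a13, a23, a33, r3⟩ := cm_vals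
  let u : Kˣ := Units.mk0 c hc0
  let z : Fin chevD4.rank → Kˣ :=
    ![u, 1, Units.map f.toMonoidHom u, Units.map f.toMonoidHom (Units.map f.toMonoidHom u)]
  have z0 : z ⟨0, by decide⟩ = u := rfl
  have z1 : z ⟨1, by decide⟩ = 1 := rfl
  have z2 : z ⟨2, by decide⟩ = Units.map f.toMonoidHom u := rfl
  have z3 : z ⟨3, by decide⟩ = Units.map f.toMonoidHom (Units.map f.toMonoidHom u) := rfl
  have hzf : ∀ k, z (graphD4.ρF k) = Units.map f.toMonoidHom (z k) := by
    intro k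
    change Fin 4 at k
    match k with
    | 0 => erw [r0]; rfl
    | 1 => erw [r1]; exact (map_one _).symm
    | 2 => erw [r2]; rfl
    | 3 => erw [r3]; exact Units.ext (h3 f hf hK c).symm
  have h18 : ∀ t, MulAut.conj (goodD4.torus z) (X 18 t) = X 18 (c * c * t) := fun t => by
    have := torus_conj z ⟨0, by decide⟩ t
    rw [torusVal_simple, show chevD4.simple (⟨0, by decide⟩ : Fin chevD4.rank) = 18 by decide +kernel] at this
    simp only [a00, a10, a20, a30] at this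
    rw [this, z0, z1, z2, z3]
    simp [u, zpow_two, sq, pow_two, Units.val_pow_eq_pow_val]
  have h13 : ∀ t, MulAut.conj (goodD4.torus z) (X 13 t) = X 13 (f c * f c * t) := fun t => by
    have := torus_conj z ⟨2, by decide⟩ t
    rw [torusVal_simple, show chevD4.simple (⟨2, by decide⟩ : Fin chevD4.rank) = 13 by decide +kernel] at this
    simp only [a02, a12, a22, a32] at this
    rw [this, z0, z1, z2, z3]
    simp [u, zpow_two, sq, pow_two, Units.val_pow_eq_pow_val]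
  have h12 : ∀ t, MulAut.conj (goodD4.torus z) (X 12 t) = X 12 (f (f c) * f (f c) * t) := fun t => by
    have := torus_conj z ⟨3, by decide⟩ t
    rw [torusVal_simple, show chevD4.simple (⟨3, by decide⟩ : Fin chevD4.rank) = 12 by decide +kernel] at this
    simp only [a03, a13, a23, a33] at this
    rw [this, z0, z1, z2, z3]
    simp [u, zpow_two, sq, pow_two, Units.val_pow_eq_pow_val]
  have hnb : (nb : GL chevD4.Idx K) ∈ twistedD4 K q := nb_mem f hf hK
  have e1 : f c * f c * f s = 1 := by rw [← map_mul, ← map_mul, hcs, map_one]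
  have e2 : f (f c) * f (f c) * f (f s) = 1 := by rw [← map_mul, ← map_mul, e1, map_one]
  refine ⟨nb * goodD4.torus z * (nb : GL chevD4.Idx K)⁻¹,
    mul_mem (mul_mem hnb (torus_mem f hf hK hzf)) (inv_mem hnb), ?_⟩
  rw [short, short, ← nb_Aelt, ← nb_Aelt, map_mul MulAut.conj, map_mul MulAut.conj, map_inv, MulAut.mul_apply,
    MulAut.mul_apply, MulAut.inv_apply_self, Aelt, map_mul (MulAut.conj (goodD4.torus z)),
    map_mul (MulAut.conj (goodD4.torus z)), h18, h13, h12, hcs, e1, e2, map_one, map_one]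
  rfl

theorem long_con_one {t : K} (ht : t ≠ 0) (hft : f t = t) : Con q (Xh t) (Xh (1 : K)) := by
  obtain ⟨c, hfc, hc⟩ := exists_fixed_sqrt f (e := t⁻¹) (by rw [map_inv₀, hft])
  have hc0 : c ≠ 0 := by
    rintro rfl
    simp at hc
    exact ht hc.symm
  have hcs : c * c * t = 1 := by rw [hc, inv_mul_cancel₀ ht]
  obtain ⟨r0, r2, r1⟩ := rhoD4
  obtain ⟨a00, a10, a20, a30, a01, a11, a21, a31, a02, a12, a22, a32, a03, a13, a23, a33, r3⟩ := cm_vals
  let u : Kˣ := Units.mk0 c hc0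
  let z : Fin chevD4.rank → Kˣ := ![1, u, 1, 1]
  have z0 : z ⟨0, by decide⟩ = 1 := rfl
  have z1 : z ⟨1, by decide⟩ = u := rfl
  have z2 : z ⟨2, by decide⟩ = 1 := rfl
  have z3 : z ⟨3, by decide⟩ = 1 := rfl
  have hzf : ∀ k, z (graphD4.ρF k) = Units.map f.toMonoidHom (z k) := by
    intro k
    change Fin 4 at k
    match k with
    | 0 => erw [r0]; exact (map_one _).symm
    | 1 => erw [r1]; exact Units.ext hfc.symm
    | 2 => erw [r2]; exact (map_one _).symm
    | 3 => erw [r3]; exact (map_one _).symm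
  have h14 : ∀ t, MulAut.conj (goodD4.torus z) (X 14 t) = X 14 (c * c * t) := fun t => by
    have := torus_conj z ⟨1, by decide⟩ t
    rw [torusVal_simple, show chevD4.simple (⟨1, by decide⟩ : Fin chevD4.rank) = 14 by decide +kernel] at this
    simp only [a01, a11, a21, a31] at this
    rw [this, z0, z1, z2, z3]
    simp [u, zpow_two, sq, pow_two, Units.val_pow_eq_pow_val]
  set w : GL chevD4.Idx K := nb * na with hw
  have hwm : w ∈ twistedD4 K q := mul_mem (nb_mem f hf hK) (na_mem f hf hK)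
  have hwX : ∀ t, MulAut.conj w (X 14 t) = Xh t := fun t => by
    rw [hw, map_mul, MulAut.mul_apply, na_conj 22 (by decide +kernel), nb_conj 23 (by decide +kernel)]
  refine ⟨w * goodD4.torus z * w⁻¹, mul_mem (mul_mem hwm (torus_mem f hf hK hzf)) (inv_mem hwm), ?_⟩
  rw [← hwX t, map_mul MulAut.conj, map_mul MulAut.conj, map_inv, MulAut.mul_apply, MulAut.mul_apply,
    MulAut.inv_apply_self, h14, hcs, hwX]

theorem even_q : Even q ∧ 1 < q := by
  have hq : 1 < q := by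
    rcases q with _ | _ | n
    · simp at hK
    · have := Fintype.one_lt_card (α := K); simp [hK] at this
    · omega
  obtain ⟨n, -, hn⟩ := FiniteField.card K 2
  have h2 : 2 ∣ q ^ 3 := by rw [← hK, hn]; exact dvd_pow_self 2 n.ne_zero
  exact ⟨even_iff_two_dvd.2 (Nat.prime_two.dvd_of_dvd_pow h2), hq⟩

/-- An involution of the twisted group has a conjugate in the positive unipotent subgroup. -/
theorem exists_conj_unipotent {g : GL chevD4.Idx K} (hg : g ∈ twistedD4 K q) (hsq : g * g = 1) :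
    ∃ x ∈ twistedD4 K q, MulAut.conj x g ∈ chevD4.posUnipotent K := by
  classical
  obtain ⟨heven, hq1⟩ := even_q f hf hK
  set G := twistedD4 K q with hG
  set U : Subgroup ↥G := (chevD4.posUnipotent K ⊓ G).subgroupOf G with hU
  have hcardU : Nat.card ↥U = q ^ 12 := by
    rw [hU, Nat.card_congr (Subgroup.subgroupOfEquivOfLe inf_le_right).toEquiv, hG, twistedD4_eq f hf hK]
    exact card_U1_D4 f hf hK
  have hcardG : Nat.card ↥G = q ^ 12 * ((q ^ 2 - 1) * (q ^ 6 - 1) * (q ^ 8 + q ^ 4 + 1)) := by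
    rw [hG, twistedD4_eq f hf hK, card_twistD4 f hf hK, mul_assoc, mul_assoc, mul_assoc]
  haveI : Fact (Nat.Prime 2) := ⟨Nat.prime_two⟩
  have hodd : ¬ 2 ∣ U.index := by
    have hmul := U.card_mul_index
    rw [hcardU, hcardG] at hmul
    rw [Nat.eq_of_mul_eq_mul_left (pow_pos (by omega) 12) hmul, Nat.prime_two.dvd_mul, Nat.prime_two.dvd_mul]
    have e2 : Even (q ^ 2) := heven.pow_of_ne_zero two_ne_zero
    have e6 : Even (q ^ 6) := heven.pow_of_ne_zero (by norm_num)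
    have e8 : Even (q ^ 8) := heven.pow_of_ne_zero (by norm_num)
    have e4 : Even (q ^ 4) := heven.pow_of_ne_zero (by norm_num)
    have p2 : 1 ≤ q ^ 2 := Nat.one_le_pow _ _ (by omega)
    have p6 : 1 ≤ q ^ 6 := Nat.one_le_pow _ _ (by omega)
    rw [even_iff_two_dvd] at e2 e6 e8 e4
    omega
  have hUp : IsPGroup 2 ↥U := by
    obtain ⟨n, -, hn⟩ := FiniteField.card K 2
    obtain ⟨k, hk⟩ : ∃ k, q = 2 ^ k := by
      have : q ∣ 2 ^ (n : ℕ) := by rw [← hn, hK]; exact dvd_pow_self q three_ne_zero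
      obtain ⟨k, -, hk⟩ := (Nat.dvd_prime_pow Nat.prime_two).1 this
      exact ⟨k, hk⟩
    exact IsPGroup.of_card (n := k * 12) (by rw [hcardU, hk, pow_mul])
  let S : Sylow 2 ↥G := hUp.toSylow hodd
  have hgp : IsPGroup 2 ↥(Subgroup.zpowers (⟨g, hg⟩ : ↥G)) := by
    intro y
    refine ⟨1, Subtype.ext ?_⟩
    obtain ⟨y, k, rfl⟩ := y
    change ((⟨g, hg⟩ : ↥G) ^ k) ^ (2 ^ 1) = 1
    rw [pow_one, ← zpow_natCast, ← zpow_mul, mul_comm, zpow_mul, zpow_natCast, sq]
    rw [show (⟨g, hg⟩ : ↥G) * ⟨g, hg⟩ = 1 from Subtype.ext hsq, one_zpow]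
  obtain ⟨P, hP⟩ := hgp.exists_le_sylow
  obtain ⟨x, hx⟩ := MulAction.exists_smul_eq ↥G P S
  refine ⟨x, x.2, ?_⟩
  have hmem : x * ⟨g, hg⟩ * x⁻¹ ∈ (S : Subgroup ↥G) := by
    rw [← hx, Sylow.coe_subgroup_smul, Subgroup.mem_pointwise_smul_iff_inv_smul_mem]
    simpa [MulAut.inv_apply, mul_assoc] using hP (Subgroup.mem_zpowers _)
  exact (Subgroup.mem_inf.1 hmem).1

theorem classify {g : GL chevD4.Idx K} (hg : g ∈ twistedD4 K q) (hsq : g * g = 1) (hne : g ≠ 1) :
    Con q g (short 1 f) ∨ Con q g (Xh (1 : K)) := by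
  obtain ⟨x, hx, hU⟩ := exists_conj_unipotent f hf hK hg hsq
  rcases good_unipotent f hf (h3 f hf hK) hK (conj_mem f hf hK hx hg) hU (by rw [← map_mul, hsq, map_one])
      (fun h => hne ((MulAut.conj _).injective (h.trans (map_one _).symm))) with ⟨s, hs, hc⟩ | ⟨t, ht, hft, hc⟩
  · exact Or.inl (Con.trans ⟨x, hx, rfl⟩ (hc.trans (short_con_one f hf hK hs)))
  · exact Or.inr (Con.trans ⟨x, hx, rfl⟩ (hc.trans (long_con_one f hf hK ht hft)))

theorem long_mem : Xh (1 : K) ∈ twistedD4 K q := by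
  rw [show Xh (1 : K) = MulAut.conj (nb : GL chevD4.Idx K) (X 22 1) from (nb_conj 23 (by decide +kernel) 1).symm]
  exact conj_mem f hf hK (nb_mem f hf hK) (xe_mem f hf hK (map_one f))

theorem involution_classes :
    (ConjClasses.mk '' {g : ↥(twistedD4 K q) | orderOf g = 2}).ncard = 2 := by
  classical
  set a : ↥(twistedD4 K q) := ⟨short 1 f, short_mem f hf hK 1⟩ with ha
  set b : ↥(twistedD4 K q) := ⟨Xh 1, long_mem f hf hK⟩ with hb
  have ho : ∀ g : ↥(twistedD4 K q), orderOf g = 2 ↔ (g : GL chevD4.Idx K) * g = 1 ∧ (g : GL chevD4.Idx K) ≠ 1 := by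
    intro g
    rw [orderOf_eq_prime_iff, sq, Subtype.ext_iff, Subgroup.coe_mul, Subgroup.coe_one, ne_eq, Subtype.ext_iff,
      Subgroup.coe_one]
  have h23 : ¬ chevD4.nroots ≤ 23 := by decide
  have hb1 : orderOf b = 2 := by
    rw [ho]
    refine ⟨by simp [hb, Xh_mul, CharTwo.add_self_eq_zero, Xh_zero], fun h => one_ne_zero (α := K) ?_⟩
    exact (goodD4.xg_eq_one_iff (show 23 < chevD4.nroots by decide) _).1 h
  have ha1 : orderOf a = 2 := by
    rw [ho]
    let v : V8 K := ⟨0, 1, f 1, f (f 1), 0, 0, 0, 0⟩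
    have hrep : Rep (short 1 f) v := ⟨0, by simp [v, short, Phi, P1, P2, X_zero, Xh_zero]⟩
    refine ⟨by simp [ha, hrep.sq, v, V8.quad, V8.pair, Xh_zero], fun h => ?_⟩
    have := rep_zero_unique (v := v) (by simpa [ha, ← h] using hrep)
    exact one_ne_zero (α := K) (congrArg V8.C0 this)
  have heq : ConjClasses.mk '' {g : ↥(twistedD4 K q) | orderOf g = 2} = {ConjClasses.mk a, ConjClasses.mk b} := by
    ext c
    simp only [Set.mem_image, Set.mem_setOf_eq, Set.mem_insert_iff, Set.mem_singleton_iff]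
    constructor
    · rintro ⟨g, hg, rfl⟩
      obtain ⟨hsq, hne⟩ := (ho g).1 hg
      rcases classify f hf hK g.2 hsq hne with ⟨x, hx, e⟩ | ⟨x, hx, e⟩
      · exact Or.inl (ConjClasses.mk_eq_mk_iff_isConj.2 (isConj_iff.2 ⟨⟨x, hx⟩, Subtype.ext (by
          simpa [ha, MulAut.conj_apply] using e)⟩))
      · exact Or.inr (ConjClasses.mk_eq_mk_iff_isConj.2 (isConj_iff.2 ⟨⟨x, hx⟩, Subtype.ext (by
          simpa [hb, MulAut.conj_apply] using e)⟩))
    · rintro (rfl | rfl)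
      · exact ⟨a, ha1, rfl⟩
      · exact ⟨b, hb1, rfl⟩
  rw [heq, Set.ncard_pair]
  intro h
  obtain ⟨x, hx⟩ := isConj_iff.1 (ConjClasses.mk_eq_mk_iff_isConj.1 h)
  exact short_not_conj f (x : GL chevD4.Idx K) (by
    simpa [ha, hb, MulAut.conj_apply, Subtype.ext_iff] using hx)

end Cfsg.Agent.H23.D4Inv
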