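import Cfsg.Agent.H23.D4Inv.Twisted

/-!
# Long and short root involutions of ³D₄(q) are not conjugate: the ranks of `g - 1` differ
-/

set_option autoImplicit false
set_option maxRecDepth 4000

namespace Cfsg.Agent.H23.D4Inv

open Cfsg.Lie Cfsg.Agent.H46
open scoped Matrix MatrixGroups

/-- Coordinates by number. -/
def ix (n : ℕ) : chevD4.Idx :=
  if h : n < 4 then Sum.inl ⟨n, h⟩ else if h' : n - 4 < 24 then Sum.inr ⟨n - 4, h'⟩ else Sum.inl ⟨0, by decide⟩

/-- Rows of a minor. -/
def selRow (i : Fin 11) : chevD4.Idx := ix ([19, 6, 9, 14, 0, 18, 1, 2, 16, 21, 24].getD i.val 0)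

/-- Columns of a minor. -/
def selCol (i : Fin 11) : chevD4.Idx := ix ([0, 4, 6, 7, 8, 9, 11, 12, 13, 16, 17].getD i.val 0)

/-- The ten columns of `x - 1` for a long root element. -/
def longCol (i : Fin 10) : chevD4.Idx := ix ([1, 4, 5, 6, 7, 8, 10, 11, 12, 13].getD i.val 0)

/-- The inverse of the minor. -/
def minorInv : Matrix (Fin 11) (Fin 11) (ZMod 2) := Matrix.of fun i j => ([
  [1, 0, 0, 0, 1, 0, 1, 1, 0, 0, 0],
  [0, 1, 0, 0, 0, 0, 0, 0, 0, 0, 0],
  [0, 1, 0, 1, 0, 0, 0, 0, 0, 0, 0],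
  [0, 0, 1, 1, 0, 0, 0, 0, 0, 0, 0],
  [0, 0, 0, 0, 1, 0, 0, 0, 0, 0, 0],
  [0, 0, 1, 0, 0, 1, 0, 0, 0, 0, 0],
  [0, 0, 0, 0, 0, 0, 0, 1, 0, 0, 0],
  [0, 0, 0, 0, 1, 0, 1, 1, 0, 0, 0],
  [0, 0, 0, 0, 0, 0, 0, 0, 1, 0, 0],
  [0, 0, 0, 0, 0, 0, 0, 0, 1, 0, 1],
  [0, 0, 0, 0, 0, 0, 0, 0, 0, 1, 1]].getD i.val []).getD j.val (0 : ZMod 2)

/-- The short root element over the prime field, minus one. -/
def shortM : Matrix chevD4.Idx chevD4.Idx (ZMod 2) :=
  chevD4.x (ZMod 2) 19 1 * chevD4.x (ZMod 2) 16 1 * chevD4.x (ZMod 2) 15 1 - 1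

theorem minor_short : minorInv * shortM.submatrix selRow selCol = 1 := by decide +kernel

/-- The long root element over the prime field, minus one. -/
def longM : Matrix chevD4.Idx chevD4.Idx (ZMod 2) := chevD4.x (ZMod 2) 23 1 - 1

theorem longM_eq :
    longM = Matrix.of fun i j => if ∃ k : Fin 10, longCol k = j then longM i j else 0 := by
  decide +kernel

theorem longM_support (i j : chevD4.Idx) (h : longM i j ≠ 0) : ∃ k : Fin 10, longCol k = j := by
  by_contra hj
  refine h ?_
  rw [longM_eq, Matrix.of_apply, if_neg hj]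

theorem longCol_injective : Function.Injective longCol := by decide +kernel

variable {K : Type*} [Field K] [CharP K 2]

theorem short_not_conj (f : K →+* K) (P : GL chevD4.Idx K) : MulAut.conj P (short 1 f) ≠ Xh (1 : K) := by
  intro h
  classical
  set φ : ZMod 2 →+* K := ZMod.castHom (dvd_refl 2) K
  set Ms : Matrix chevD4.Idx chevD4.Idx K := (short 1 f : GL chevD4.Idx K).val - 1
  set Ml : Matrix chevD4.Idx chevD4.Idx K := (Xh (1 : K) : GL chevD4.Idx K).val - 1
  have hMs : shortM.map φ = Ms := by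
    simp only [shortM, Ms, short, map_one, Units.val_mul, goodD4.coe_xg]
    rw [Matrix.map_sub φ (map_sub φ), Matrix.map_mul, Matrix.map_mul, Cfsg.Agent.H47.x_map, Cfsg.Agent.H47.x_map,
      Cfsg.Agent.H47.x_map, map_one, Matrix.map_one φ (map_zero φ) (map_one φ)]
  have hMl : longM.map φ = Ml := by
    simp only [longM, Ml, Xh, goodD4.coe_xg]
    rw [Matrix.map_sub φ (map_sub φ), Cfsg.Agent.H47.x_map, map_one, Matrix.map_one φ (map_zero φ) (map_one φ)]
  have hminor : minorInv.map φ * Ms.submatrix selRow selCol = 1 := by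
    rw [← hMs, show (shortM.map φ).submatrix selRow selCol = (shortM.submatrix selRow selCol).map φ from rfl,
      ← Matrix.map_mul, minor_short, Matrix.map_one φ (map_zero φ) (map_one φ)]
  set sel : Matrix (Fin 10) chevD4.Idx K := Matrix.of fun k j => if longCol k = j then 1 else 0 with hsel
  have hfac : Ml = Ml.submatrix id longCol * sel := by
    ext i j
    rw [Matrix.mul_apply]
    by_cases hj : ∃ k, longCol k = j
    · obtain ⟨k, rfl⟩ := hj
      rw [Finset.sum_eq_single k]
      · simp [hsel]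
      · intro b _ hb
        simp [hsel, show longCol b ≠ longCol k from fun e => hb (longCol_injective e)]
      · simp
    · rw [Finset.sum_eq_zero fun b _ => ?_]
      · rw [← hMl, Matrix.map_apply]
        by_contra hne
        exact hj (longM_support i j fun e => hne (by rw [e, map_zero]))
      · simp [hsel, show longCol b ≠ j from fun e => hj ⟨b, e⟩]
  have hPval : (P : Matrix chevD4.Idx chevD4.Idx K) * Ms * (↑P⁻¹ : Matrix chevD4.Idx chevD4.Idx K) = Ml := by
    simp only [Ms, Ml]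
    rw [← h, MulAut.conj_apply, Units.val_mul, Units.val_mul, mul_sub, sub_mul, mul_one, Units.mul_inv]
  have hMs' : Ms = (↑P⁻¹ : Matrix chevD4.Idx chevD4.Idx K) * Ml.submatrix id longCol *
      (sel * (P : Matrix chevD4.Idx chevD4.Idx K)) := by
    rw [Matrix.mul_assoc, ← Matrix.mul_assoc (Ml.submatrix id longCol), ← hfac, ← hPval, ← Matrix.mul_assoc,
      ← Matrix.mul_assoc, ← Matrix.mul_assoc, Units.inv_mul, Matrix.one_mul, Matrix.mul_assoc, Units.inv_mul,
      Matrix.mul_one]
  set L := minorInv.map φ * ((↑P⁻¹ : Matrix chevD4.Idx chevD4.Idx K) * Ml.submatrix id longCol).submatrix selRow id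
  set R := (sel * (P : Matrix chevD4.Idx chevD4.Idx K)).submatrix
    id selCol
  have hLR : L * R = 1 := by
    rw [← hminor, hMs', Matrix.submatrix_mul _ _ selRow id selCol Function.bijective_id, Matrix.mul_assoc]
  have hr := Matrix.rank_mul_le_left L R
  rw [hLR, Matrix.rank_one, Fintype.card_fin] at hr
  have := hr.trans L.rank_le_width
  omega

end Cfsg.Agent.H23.D4Inv
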