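import Cfsg.Agent.H23.D4Inv.Action

/-!
# The involutions of ³D₄(q), q even: reduction to root elements
-/

set_option autoImplicit false
set_option maxRecDepth 4000

namespace Cfsg.Agent.H23.D4Inv

open Cfsg.Lie Cfsg.Agent.H46
open scoped Matrix MatrixGroups

variable {K : Type*} [Field K] [CharP K 2] {q : ℕ} (f : K →+* K) (hf : ∀ x, f x = x ^ q)
  (h3 : ∀ x, f (f (f x)) = x)

/-- The twisting endomorphism. -/
noncomputable def sig : GL chevD4.Idx K →* GL chevD4.Idx K := goodD4.twistHom okD4.check f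

theorem sig_X {r : ℕ} (w : ℕ) (h : r < 24 ∧ graphD4.S.π r = w ∧ (graphD4.S.ε r = 1 ∨ graphD4.S.ε r = -1)) (t : K) :
    sig f (X r t) = X w (f t) := by
  rw [sig, Good.twistHom_xg goodD4 okD4.check f h.1, h.2.1]
  congr 1
  rcases h.2.2 with e | e <;> simp [e, CharTwo.neg_eq]

theorem sig_Aelt (a b c : K) : sig f (Aelt a b c) = Aelt (f c) (f a) (f b) := by
  rw [Aelt, map_mul, map_mul, sig_X f 13 (by decide +kernel), sig_X f 12 (by decide +kernel),
    sig_X f 18 (by decide +kernel), Aelt]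
  exact ((X_comm (by decide +kernel) _ _).mul_left (X_comm (by decide +kernel) _ _)).eq.trans (mul_assoc _ _ _).symm

/-- The twist on coordinates. -/
def sigV (v : V8 K) : V8 K := ⟨f v.B, f v.C2, f v.C0, f v.C1, f v.D2, f v.D0, f v.D1, f v.E⟩

open V8

theorem Rep.twist {g : GL chevD4.Idx K} {v : V8 K} (hg : Rep g v) : Rep (sig f g) (sigV f v) := by
  have h := hg.map (sig f) (u14 := eB (f v.B)) (u19 := eC1 (f v.C0)) (u16 := eC2 (f v.C1)) (u15 := eC0 (f v.C2))
    (u22 := eE (f v.E)) (u17 := eD1 (f v.D0)) (u20 := eD2 (f v.D1)) (u21 := eD0 (f v.D2)) (u23 := V8.zero)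
    ?_ ?_ ?_ ?_ ?_ ?_ ?_ ?_ ?_
  · convert h using 1
    all_goals first
      | rfl
      | (apply V8.ext <;> simp only [sigV, V8.add, V8.zero, eB, eC0, eC1, eC2, eD0, eD1, eD2, eE] <;> ring)
  · rw [sig_X f 14 (by decide +kernel)]; exact rep_eB _
  · rw [sig_X f 16 (by decide +kernel)]; exact rep_eC1 _
  · rw [sig_X f 15 (by decide +kernel)]; exact rep_eC2 _
  · rw [sig_X f 19 (by decide +kernel)]; exact rep_eC0 _
  · rw [sig_X f 22 (by decide +kernel)]; exact rep_eE _
  · rw [sig_X f 20 (by decide +kernel)]; exact rep_eD1 _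
  · rw [sig_X f 21 (by decide +kernel)]; exact rep_eD2 _
  · rw [sig_X f 17 (by decide +kernel)]; exact rep_eD0 _
  · intro z; rw [Xh, sig_X f 23 (by decide +kernel)]; exact Rep.central _

/-- The coordinates of a twisted element. -/
structure Fix (v : V8 K) : Prop where
  hB : f v.B = v.B
  hE : f v.E = v.E
  hC1 : v.C1 = f v.C0
  hC2 : v.C2 = f (f v.C0)
  hD1 : v.D1 = f v.D0
  hD2 : v.D2 = f (f v.D0)

include hf in
theorem twisted_fixed {g : GL chevD4.Idx K} (h3 : ∀ x, f (f (f x)) = x) (hg : g ∈ twistedD4 K q) :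
    sig f g = g := by
  refine (Subgroup.closure_le (MonoidHom.eqLocus (sig f) (MonoidHom.id _))).2 ?_ hg
  rintro x ⟨w, hw, hx⟩
  change sig f x = x
  rcases hw with ⟨t, ht, r, hr, rfl⟩ | ⟨t, rs, hrs, rfl⟩
  · rw [word_one goodD4] at hx
    subst hx
    simp only [List.mem_cons, List.not_mem_nil, or_false] at hr
    rcases hr with rfl | rfl
    · show sig f (X 14 t) = X 14 t
      rw [sig_X f 14 (by decide +kernel), hf, ht]
    · show sig f (X 9 t) = X 9 t
      rw [sig_X f 9 (by decide +kernel), hf, ht]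
  · rw [word_three goodD4] at hx
    subst hx
    have e1 : f t = t ^ q := hf t
    have e2 : f (f t) = t ^ q ^ 2 := by rw [hf t, hf, ← pow_mul, sq]
    simp only [List.mem_cons, List.not_mem_nil, or_false] at hrs
    rcases hrs with rfl | rfl
    · show sig f (Aelt t (t ^ q) (t ^ q ^ 2)) = Aelt t (t ^ q) (t ^ q ^ 2)
      rw [← e1, ← e2, sig_Aelt, h3]
    · show sig f (X 5 t * X 10 (t ^ q) * X 11 (t ^ q ^ 2)) = X 5 t * X 10 (t ^ q) * X 11 (t ^ q ^ 2)
      rw [← e1, ← e2, map_mul, map_mul, sig_X f 10 (by decide +kernel), sig_X f 11 (by decide +kernel),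
        sig_X f 5 (by decide +kernel), h3]
      exact ((X_comm (by decide +kernel) _ _).mul_left (X_comm (by decide +kernel) _ _)).eq.trans
        (mul_assoc _ _ _).symm

include hf in
theorem xb_mem {t : K} (ht : f t = t) : X 14 t ∈ twistedD4 K q :=
  Subgroup.subset_closure ⟨_, Or.inl ⟨t, by rw [← hf, ht], 14, by simp [d4p2], rfl⟩, (word_one goodD4 ..).2 rfl⟩

include hf in
theorem xa_mem (s : K) : Aelt s (f s) (f (f s)) ∈ twistedD4 K q := by
  have e2 : f (f s) = s ^ q ^ 2 := by rw [hf s, hf, ← pow_mul, sq]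
  rw [hf s, show f (s ^ q) = s ^ q ^ 2 by rw [← hf s, e2]]
  exact Subgroup.subset_closure ⟨_, Or.inr ⟨s, (18, 13, 12), by simp [d4p1, d4p3, d4p4], rfl⟩,
    (word_three goodD4 ..).2 rfl⟩

/-- The representative of the long fundamental reflection. -/
noncomputable def nb : GL chevD4.Idx K := goodD4.ng (chevD4.simple 1) (1 : K)

/-- The representative of the short fundamental reflection. -/
noncomputable def na : GL chevD4.Idx K :=
  goodD4.ng (chevD4.simple 0) (1 : K) * goodD4.ng (chevD4.simple 2) 1 * goodD4.ng (chevD4.simple 3) 1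

theorem nb_conj {r : ℕ} (w : ℕ) (h : r < 24 ∧ chevD4.reflectRoot 1 r = w) (t : K) :
    MulAut.conj (nb : GL chevD4.Idx K) (X r t) = X w t :=
  weyl_conj 1 w ⟨by decide, h⟩ t

theorem na_conj {r : ℕ} (w : ℕ) (h : r < 24 ∧ chevD4.reflectRoot 3 r < 24 ∧
      chevD4.reflectRoot 2 (chevD4.reflectRoot 3 r) < 24 ∧
      chevD4.reflectRoot 0 (chevD4.reflectRoot 2 (chevD4.reflectRoot 3 r)) = w) (t : K) :
    MulAut.conj (na : GL chevD4.Idx K) (X r t) = X w t := by
  rw [na, map_mul, map_mul, MulAut.mul_apply, MulAut.mul_apply, weyl_conj 3 _ ⟨by decide, h.1, rfl⟩,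
    weyl_conj 2 _ ⟨by decide, h.2.1, rfl⟩, weyl_conj 0 _ ⟨by decide, h.2.2.1, h.2.2.2⟩]

variable [Fintype K] (hK : Fintype.card K = q ^ 3)

include hf hK

theorem nPar_mem (j : Fin 2) : graphD4.nPar goodD4 j (fun _ => (1 : K)) ∈ twistedD4 K q := by
  rw [twistedD4_eq f hf hK, tdD4, graphD4.G1_eq_closure okD4 coxD4 f]
  exact graphD4.nPar_mem_closure okD4 f j fun _ _ => (map_one f).symm

theorem nb_mem : (nb : GL chevD4.Idx K) ∈ twistedD4 K q := by
  obtain ⟨-, o1, -⟩ := orbD4
  have := nPar_mem f hf hK 1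
  simpa [nb, GraphData.nPar, GraphData.orbProd, o1] using this

theorem na_mem : (na : GL chevD4.Idx K) ∈ twistedD4 K q := by
  obtain ⟨o0, -⟩ := orbD4
  have := nPar_mem f hf hK 0
  simpa [na, GraphData.nPar, GraphData.orbProd, o0, mul_assoc] using this

theorem conj_mem {x g : GL chevD4.Idx K} (hx : x ∈ twistedD4 K q) (hg : g ∈ twistedD4 K q) :
    MulAut.conj x g ∈ twistedD4 K q := by
  rw [MulAut.conj_apply]; exact mul_mem (mul_mem hx hg) (inv_mem hx)

/-- The short root element. -/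
noncomputable def short (s : K) (f : K →+* K) : GL chevD4.Idx K := X 19 s * X 16 (f s) * X 15 (f (f s))

omit hf hK [Fintype K] in
theorem nb_Aelt (a b c : K) : MulAut.conj nb (Aelt a b c) = X 19 a * X 16 b * X 15 c := by
  rw [Aelt, map_mul, map_mul, nb_conj 19 (by decide +kernel), nb_conj 16 (by decide +kernel),
    nb_conj 15 (by decide +kernel)]

theorem short_mem (s : K) : short s f ∈ twistedD4 K q := by
  rw [short, ← nb_Aelt]
  exact conj_mem f hf hK (nb_mem f hf hK) (xa_mem f hf s)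

theorem xe_mem {t : K} (ht : f t = t) : X 22 t ∈ twistedD4 K q := by
  rw [← na_conj (r := 14) 22 (by decide +kernel) t]
  exact conj_mem f hf hK (na_mem f hf hK) (xb_mem f hf ht)

theorem Phi_mem {v : V8 K} (hv : Fix f v) : Phi v ∈ twistedD4 K q := by
  have hd : X 17 v.D0 * X 20 (f v.D0) * X 21 (f (f v.D0)) ∈ twistedD4 K q := by
    rw [← na_conj (r := 19) 17 (by decide +kernel), ← na_conj (r := 16) 20 (by decide +kernel),
      ← na_conj (r := 15) 21 (by decide +kernel), ← map_mul, ← map_mul]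
    exact conj_mem f hf hK (na_mem f hf hK) (short_mem f hf hK v.D0)
  have hc := short_mem f hf hK v.C0
  rw [short, ← hv.hC2, ← hv.hC1] at hc
  rw [← hv.hD2, ← hv.hD1] at hd
  rw [Phi, P1, P2]
  have e1 : X 14 v.B * X 19 v.C0 * X 16 v.C1 * X 15 v.C2 ∈ twistedD4 K q := by
    simpa only [mul_assoc] using mul_mem (xb_mem f hf hv.hB) hc
  have e2 : X 22 v.E * X 17 v.D0 * X 20 v.D1 * X 21 v.D2 ∈ twistedD4 K q := by
    simpa only [mul_assoc] using mul_mem (xe_mem f hf hK hv.hE) hd
  exact mul_mem e1 e2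

include h3

theorem fix_of_rep {g : GL chevD4.Idx K} {v : V8 K} (hg : g ∈ twistedD4 K q) (hv : Rep g v) : Fix f v := by
  have h := hv.twist f
  rw [twisted_fixed f hf h3 hg] at h
  have e := h.unique hv
  simp only [sigV, V8.ext_iff] at e
  obtain ⟨eB, e0, e1, e2, d0, d1, d2, eE⟩ := e
  exact ⟨eB, eE, e1.symm, by rw [e1, e2], d1.symm, by rw [d1, d2]⟩

theorem central_fix {g : GL chevD4.Idx K} {v : V8 K} {z : K} (hg : g ∈ twistedD4 K q) (hv : Fix f v)
    (e : g = Phi v * Xh z) : f z = z ∧ Xh z ∈ twistedD4 K q := by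
  have hz : Xh z ∈ twistedD4 K q := by
    have : Xh z = (Phi v)⁻¹ * g := by rw [e, inv_mul_cancel_left]
    rw [this]
    exact mul_mem (inv_mem (Phi_mem f hf hK hv)) hg
  have h := twisted_fixed f hf h3 hz
  rw [Xh, sig_X f 23 (by decide +kernel)] at h
  exact ⟨goodD4.xg_injective (show 23 < chevD4.nroots by decide) h, hz⟩

omit h3

/-- Conjugation inside the twisted group. -/
def Con (q : ℕ) (g h : GL chevD4.Idx K) : Prop := ∃ x ∈ twistedD4 K q, MulAut.conj x g = h

omit hf hK [CharP K 2] [Fintype K] in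
theorem Con.refl (g : GL chevD4.Idx K) : Con q g g := ⟨1, one_mem _, by simp⟩

omit hf hK [CharP K 2] [Fintype K] in
theorem Con.trans {a b c : GL chevD4.Idx K} (h : Con q a b) (h' : Con q b c) : Con q a c := by
  obtain ⟨x, hx, rfl⟩ := h
  obtain ⟨y, hy, rfl⟩ := h'
  exact ⟨y * x, mul_mem hy hx, by rw [map_mul, MulAut.mul_apply]⟩

/-- Conjugate to a root element. -/
def Good' (q : ℕ) (f : K →+* K) (g : GL chevD4.Idx K) : Prop :=
  (∃ s, s ≠ 0 ∧ Con q g (short s f)) ∨ ∃ z, z ≠ 0 ∧ f z = z ∧ Con q g (Xh z)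

omit hf hK [CharP K 2] [Fintype K] in
theorem Good'.of_conj {g h : GL chevD4.Idx K} (hc : Con q g h) (hh : Good' q f h) : Good' q f g := by
  rcases hh with ⟨s, hs, hc'⟩ | ⟨z, hz, hfz, hc'⟩
  · exact Or.inl ⟨s, hs, hc.trans hc'⟩
  · exact Or.inr ⟨z, hz, hfz, hc.trans hc'⟩

/-- The swap of coordinates by the short reflection. -/
def naV {L : Type*} (v : V8 L) : V8 L := ⟨v.E, v.D0, v.D1, v.D2, v.C0, v.C1, v.C2, v.B⟩

omit hf hK [Fintype K] in
theorem Rep.naConj {g : GL chevD4.Idx K} {v : V8 K} (hg : Rep g v) : Rep (MulAut.conj na g) (naV v) := by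
  have h := hg.map (MulAut.conj (na : GL chevD4.Idx K)).toMonoidHom (u14 := eE v.B) (u19 := eD0 v.C0)
    (u16 := eD1 v.C1) (u15 := eD2 v.C2) (u22 := eB v.E) (u17 := eC0 v.D0) (u20 := eC1 v.D1) (u21 := eC2 v.D2)
    (u23 := V8.zero) ?_ ?_ ?_ ?_ ?_ ?_ ?_ ?_ ?_
  · convert h using 1
    all_goals first
      | rfl
      | (apply V8.ext <;> simp only [naV, V8.add, V8.zero, eB, eC0, eC1, eC2, eD0, eD1, eD2, eE] <;> ring)
  all_goals simp only [MulEquiv.coe_toMonoidHom]
  · rw [na_conj 22 (by decide +kernel)]; exact rep_eE _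
  · rw [na_conj 17 (by decide +kernel)]; exact rep_eD0 _
  · rw [na_conj 20 (by decide +kernel)]; exact rep_eD1 _
  · rw [na_conj 21 (by decide +kernel)]; exact rep_eD2 _
  · rw [na_conj 14 (by decide +kernel)]; exact rep_eB _
  · rw [na_conj 19 (by decide +kernel)]; exact rep_eC0 _
  · rw [na_conj 16 (by decide +kernel)]; exact rep_eC1 _
  · rw [na_conj 15 (by decide +kernel)]; exact rep_eC2 _
  · intro z; rw [na_conj 23 (by decide +kernel)]; exact Rep.central _

theorem exists_trace_one (h3 : ∀ x, f (f (f x)) = x) : ∃ w : K, w + f w + f (f w) = 1 := by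
  classical
  suffices h : ∃ x : K, x + f x + f (f x) ≠ 0 by
    obtain ⟨x, hx⟩ := h
    set T := x + f x + f (f x) with hT
    have hfT : f T = T := by rw [hT, map_add, map_add, h3]; ring
    refine ⟨x * T⁻¹, ?_⟩
    rw [map_mul, map_inv₀, hfT, map_mul, map_inv₀, hfT, ← add_mul, ← add_mul, ← hT]
    exact mul_inv_cancel₀ hx
  by_contra h
  push Not at h
  have hq : 1 < q := by
    rcases q with _ | _ | n
    · simp at hK
    · have := Fintype.one_lt_card (α := K); simp [hK] at this
    · omega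
  let P : Polynomial K := Polynomial.X + Polynomial.X ^ q + Polynomial.X ^ q ^ 2
  have h1 : 1 < q ^ 2 := Nat.one_lt_pow two_ne_zero hq
  have h2 : q < q ^ 2 := by nlinarith
  have hcoe : P.coeff (q ^ 2) = 1 := by
    simp [P, Polynomial.coeff_X, Polynomial.coeff_X_pow, h1.ne, h2.ne']
  have hne : P ≠ 0 := fun e => one_ne_zero (α := K) (by rw [← hcoe, e, Polynomial.coeff_zero])
  have hdeg : P.natDegree ≤ q ^ 2 := by
    refine Polynomial.natDegree_add_le_of_degree_le (Polynomial.natDegree_add_le_of_degree_le ?_ ?_) ?_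
    · rw [Polynomial.natDegree_X]; exact h1.le
    · rw [Polynomial.natDegree_X_pow]; exact h2.le
    · rw [Polynomial.natDegree_X_pow]
  have hroots : (Finset.univ : Finset K) ⊆ P.roots.toFinset := fun x _ => by
    rw [Multiset.mem_toFinset, Polynomial.mem_roots hne]
    have := h x
    rw [hf x, hf, ← pow_mul, ← sq] at this
    simpa [P] using this
  have := ((Finset.card_le_card hroots).trans (Multiset.toFinset_card_le _)).trans
    ((Polynomial.card_roots' P).trans hdeg)
  rw [Finset.card_univ, hK] at this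
  exact absurd this (not_le.2 (Nat.pow_lt_pow_right hq (by norm_num)))

omit hf hK in
theorem exists_fixed_sqrt {e : K} (he : f e = e) : ∃ l : K, f l = l ∧ l * l = e := by
  obtain ⟨l, hl⟩ : ∃ l : K, l * l = e := by
    have hinj : Function.Injective fun x : K => x * x := fun x y hxy => CharTwo.sq_inj.1 (by simpa [sq] using hxy)
    exact (Finite.injective_iff_surjective.1 hinj) e
  exact ⟨l, CharTwo.sq_inj.1 (by rw [sq, sq, ← map_mul, hl, he]), hl⟩

include h3

/-- A radical element with a single nonzero short coordinate orbit is a short root element up to conjugation. -/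
theorem good_short {g : GL chevD4.Idx K} {v : V8 K} (hg : g ∈ twistedD4 K q) (hv : Rep g v) (hB : v.B = 0)
    (hD : v.D0 = 0) (hE : v.E = 0) (hC : v.C0 ≠ 0) : Good' q f g := by
  have hfix := fix_of_rep f hf h3 hK hg hv
  obtain ⟨z, e⟩ := hv
  obtain ⟨hz, -⟩ := central_fix f hf h3 hK hg hfix e
  obtain ⟨w, hw⟩ := exists_trace_one f hf hK h3
  set d := w * z / v.C0 with hd
  let u : V8 K := ⟨0, 0, 0, 0, d, f d, f (f d), 0⟩
  have hu : Fix f u := ⟨map_zero f, map_zero f, by simp [u], by simp [u], rfl, rfl⟩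
  have hp : u.pair v = z := by
    simp only [V8.pair, u, hfix.hC1, hfix.hC2, zero_mul, zero_add]
    rw [← map_mul, ← map_mul, ← map_mul, hd, div_mul_cancel₀ _ hC, map_mul, map_mul, hz, hz]
    linear_combination z * hw
  have hshort : short v.C0 f = Phi v := by
    simp [short, Phi, P1, P2, hB, hD, hE, hfix.hC1, hfix.hC2, hfix.hD1, hfix.hD2, X_zero]
  have hpv : v.pair u = 0 := by
    simp [V8.pair, u, hB, hD, hE, hfix.hD1, hfix.hD2]
  refine Or.inl ⟨v.C0, hC, Phi u, Phi_mem f hf hK hu, ?_⟩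
  have hinv : (Phi u)⁻¹ = Phi u := inv_eq_of_mul_eq_one_right (by rw [Phi_sq]; simp [V8.quad, V8.pair, u, Xh_zero])
  rw [MulAut.conj_apply, hinv, e, hshort, ← mul_assoc (Phi u), Phi_mul, hp, mul_assoc (Phi (u.add v)), Xh_mul,
    CharTwo.add_self_eq_zero, Xh_zero, mul_one, Phi_mul,
    show (u.add v).add u = v by ext <;> simp only [V8.add] <;> rw [add_comm, ← add_assoc, CharTwo.add_self_eq_zero, zero_add],
    show (u.add v).pair u = 0 by
      have : (u.add v).pair u = u.pair u + v.pair u := by simp only [V8.pair, V8.add]; ring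
      rw [this, hpv, add_zero]; simp [V8.pair, u],
    Xh_zero, mul_one]

/-- A radical element with a single nonzero long coordinate is a long root element up to conjugation. -/
theorem good_long {g : GL chevD4.Idx K} {v : V8 K} (hg : g ∈ twistedD4 K q) (hv : Rep g v) (hB : v.B = 0)
    (hC : v.C0 = 0) (hD : v.D0 = 0) (hne : g ≠ 1) : Good' q f g := by
  have hfix := fix_of_rep f hf h3 hK hg hv
  obtain ⟨z, e⟩ := hv
  obtain ⟨hz, -⟩ := central_fix f hf h3 hK hg hfix e
  have hphi : Phi v = X 22 v.E := by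
    simp [Phi, P1, P2, hB, hC, hD, hfix.hC1, hfix.hC2, hfix.hD1, hfix.hD2, X_zero]
  rw [hphi] at e
  by_cases hE : v.E = 0
  · rw [hE, X_zero, one_mul] at e
    subst e
    exact Or.inr ⟨z, fun h => hne (by rw [h, Xh_zero]), hz, Con.refl _⟩
  · refine Or.inr ⟨v.E, hE, hfix.hE, ?_⟩
    set t := z / v.E with ht
    have hft : f t = t := by rw [ht, map_div₀, hz, hfix.hE]
    have h1 : Con q g (X 22 v.E) := by
      refine ⟨X 14 t, xb_mem f hf hft, ?_⟩
      rw [e, map_mul, X_conj_swap 23 (by decide +kernel) (by decide +kernel),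
        X_conj_fix (r := 23) (by decide +kernel), ht, mul_comm v.E, div_mul_cancel₀ _ hE, mul_assoc, Xh_mul,
        CharTwo.add_self_eq_zero, Xh_zero, mul_one]
    exact h1.trans ⟨nb, nb_mem f hf hK, nb_conj 23 (by decide +kernel) _⟩

/-- The case of a nonzero first coordinate. -/
theorem good_B {g : GL chevD4.Idx K} {v : V8 K} (hg : g ∈ twistedD4 K q) (hv : Rep g v) (hsq : g * g = 1)
    (hne : g ≠ 1) (hB : v.B ≠ 0) : Good' q f g := by
  have hfix := fix_of_rep f hf h3 hK hg hv
  set s := v.C0 / v.B with hs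
  have hx := xa_mem f hf s
  set g1 := MulAut.conj (Aelt s (f s) (f (f s))) g with hg1def
  have hg1 : g1 ∈ twistedD4 K q := conj_mem f hf hK hx hg
  have hv1 := hv.conjA s (f s) (f (f s))
  set v1 := actA s (f s) (f (f s)) v with hv1def
  have hsq1 : g1 * g1 = 1 := by rw [hg1def, ← map_mul, hsq, map_one]
  have hc0 : v1.C0 = 0 := by
    simp only [hv1def, actA, hs, div_mul_cancel₀ _ hB, CharTwo.add_self_eq_zero]
  have hfix1 := fix_of_rep f hf h3 hK hg1 hv1
  have hc1 : v1.C1 = 0 := by rw [hfix1.hC1, hc0, map_zero]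
  have hc2 : v1.C2 = 0 := by rw [hfix1.hC2, hc0, map_zero, map_zero]
  have hb1 : v1.B = v.B := rfl
  have he1 : v1.E = 0 := by
    have hq0 := quad_eq_zero_of_sq hv1 hsq1
    simp only [V8.quad, V8.pair, hc0, hc1, hc2, hb1, mul_zero, add_zero] at hq0
    exact (mul_eq_zero.1 hq0).resolve_right hB
  refine Good'.of_conj f ⟨_, hx, rfl⟩ ?_
  have hg2 : MulAut.conj na g1 ∈ twistedD4 K q := conj_mem f hf hK (na_mem f hf hK) hg1
  have hv2 := hv1.naConj
  refine Good'.of_conj f ⟨_, na_mem f hf hK, rfl⟩ ?_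
  by_cases hd : v1.D0 = 0
  · exact good_long f hf h3 hK hg2 hv2 he1 hd hc0 fun h => hne (by
      have h' := (MulAut.conj (na : GL chevD4.Idx K)).injective (h.trans (map_one _).symm)
      exact (MulAut.conj _).injective (h'.trans (map_one _).symm))
  set C := v1.D0 with hC
  set N := C * f C * f (f C) with hN
  have hN0 : N ≠ 0 := by
    simp only [hN, ne_eq, mul_eq_zero, map_eq_zero, or_self]
    exact hd
  obtain ⟨l, hfl, hl⟩ := exists_fixed_sqrt f (e := v.B / N) (by
    rw [map_div₀, hfix.hB, hN, map_mul, map_mul, h3]; congr 1; ring)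
  have hx3 := xa_mem f hf (l * C)
  refine Good'.of_conj f ⟨_, hx3, rfl⟩ (good_short f hf h3 hK (conj_mem f hf hK hx3 hg2)
    (hv2.conjA _ _ _) ?_ ?_ ?_ ?_)
  · simp [actA, naV, he1]
  · simp only [actA, naV, he1, hc0, hfix1.hD1, hfix1.hD2, map_mul, hfl, mul_zero, add_zero, zero_add, ← hC]
    linear_combination (l * f C * f (f C)) * CharTwo.two_eq_zero (R := K)
  · simp only [actA, naV, he1, hc0, hc1, hc2, hfix1.hD1, hfix1.hD2, map_mul, hfl, hb1, mul_zero, add_zero, ← hC]
    have hNl : l * l * N = v.B := by rw [hl, div_mul_cancel₀ _ hN0]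
    linear_combination hNl + (v.B + l * l * N) * CharTwo.two_eq_zero (R := K)
  · simpa [actA, naV, he1] using hd

theorem good_C {g : GL chevD4.Idx K} {v : V8 K} (hg : g ∈ twistedD4 K q) (hv : Rep g v) (hsq : g * g = 1)
    (hB : v.B = 0) (hE : v.E = 0) (hC : v.C0 ≠ 0) : Good' q f g := by
  have hfix := fix_of_rep f hf h3 hK hg hv
  set C := v.C0 with hCdef
  set D := v.D0 with hDdef
  have hC1 : f C ≠ 0 := by simpa using hC
  have hC2 : f (f C) ≠ 0 := by simpa using hC
  set N := C * f C * f (f C) with hN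
  have hN0 : N ≠ 0 := mul_ne_zero (mul_ne_zero hC hC1) hC2
  have hfN : f N = N := by rw [hN, map_mul, map_mul, h3]; ring
  set e := f (f D) * f (f C) / N with he
  have hfe : f e = D * C / N := by rw [he, map_div₀, map_mul, hfN, h3, h3]
  have hffe : f (f e) = f D * f C / N := by rw [hfe, map_div₀, map_mul, hfN]
  have hquad := quad_eq_zero_of_sq hv hsq
  simp only [V8.quad, V8.pair, hB, hE, hfix.hC1, hfix.hC2, hfix.hD1, hfix.hD2, mul_zero, zero_add, ← hCdef,
    ← hDdef] at hquad
  have hTe : e + f e + f (f e) = 0 := by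
    rw [hffe, hfe, he, ← add_div, ← add_div,
      show f (f D) * f (f C) + D * C + f D * f C = 0 by rw [← hquad]; ring, zero_div]
  obtain ⟨w, hw⟩ := exists_trace_one f hf hK h3
  set u := e * f w + (e + f e) * f (f w) with hu
  have hu' : f u + u = e := by
    rw [hu]
    simp only [map_add, map_mul, h3]
    linear_combination e * hw + w * hTe + (f e * f (f w) - e * w) * CharTwo.two_eq_zero (R := K)
  set s := u * C with hs
  have hx := xa_mem f hf s
  set g1 := MulAut.conj (Aelt s (f s) (f (f s))) g with hg1def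
  have hg1 : g1 ∈ twistedD4 K q := conj_mem f hf hK hx hg
  have hv1 := hv.conjA s (f s) (f (f s))
  set v1 := actA s (f s) (f (f s)) v with hv1def
  have hfix1 := fix_of_rep f hf h3 hK hg1 hv1
  have hb1 : v1.B = 0 := hB
  have hc1 : v1.C0 = C := by simp [hv1def, actA, hB, ← hCdef]
  have hd1 : v1.D0 = 0 := by
    have h1 : f u + f (f u) = f e := by
      have h := congrArg f hu'
      rw [map_add] at h
      rw [← h, add_comm]
    have h2 : f e * (f C * f (f C)) = D := by
      rw [hfe, hN]; field_simp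
    simp only [hv1def, actA, hB, hfix.hC1, hfix.hC2, hs, map_mul, ← hCdef, ← hDdef, mul_zero, add_zero]
    linear_combination (f C * f (f C)) * h1 + h2 + D * CharTwo.two_eq_zero (R := K)
  obtain ⟨l, hfl, hl⟩ := exists_fixed_sqrt f (e := v1.E / N) (by rw [map_div₀, hfix1.hE, hfN])
  have hx3 := xa_mem f hf (l * C)
  refine Good'.of_conj f ⟨_, hx, rfl⟩ (Good'.of_conj f ⟨_, hx3, rfl⟩ (good_short f hf h3 hK
    (conj_mem f hf hK hx3 hg1) (hv1.conjA _ _ _) ?_ ?_ ?_ ?_))
  · simp [actA, hb1]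
  · simp only [actA, hb1, hd1, hfix1.hC1, hfix1.hC2, hc1, map_mul, hfl, mul_zero, add_zero, zero_add]
    linear_combination (l * f C * f (f C)) * CharTwo.two_eq_zero (R := K)
  · simp only [actA, hb1, hd1, hfix1.hC1, hfix1.hC2, hfix1.hD1, hfix1.hD2, hc1, map_mul, hfl, map_zero, mul_zero,
      add_zero]
    have hNl : l * l * N = v1.E := by rw [hl, div_mul_cancel₀ _ hN0]
    rw [hN] at hNl
    linear_combination hNl + (v1.E + l * l * (C * f C * f (f C))) * CharTwo.two_eq_zero (R := K)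
  · simpa [actA, hb1, hc1] using hC

/-- Every involution of the radical is conjugate to a root element. -/
theorem good_radical {g : GL chevD4.Idx K} {v : V8 K} (hg : g ∈ twistedD4 K q) (hv : Rep g v) (hsq : g * g = 1)
    (hne : g ≠ 1) : Good' q f g := by
  have hna := na_mem f hf hK
  have hsq' : MulAut.conj na g * MulAut.conj na g = 1 := by rw [← map_mul, hsq, map_one]
  have hne' : MulAut.conj na g ≠ 1 := fun h => hne ((MulAut.conj _).injective (h.trans (map_one _).symm))
  by_cases hB : v.B = 0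
  swap
  · exact good_B f hf h3 hK hg hv hsq hne hB
  by_cases hE : v.E = 0
  swap
  · exact Good'.of_conj f ⟨_, hna, rfl⟩ (good_B f hf h3 hK (conj_mem f hf hK hna hg) hv.naConj hsq' hne' hE)
  by_cases hC : v.C0 = 0
  swap
  · exact good_C f hf h3 hK hg hv hsq hB hE hC
  by_cases hD : v.D0 = 0
  · exact good_long f hf h3 hK hg hv hB hC hD hne
  · exact Good'.of_conj f ⟨_, hna, rfl⟩ (good_C f hf h3 hK (conj_mem f hf hK hna hg) hv.naConj hsq' hE hB hD)

/-- Every involution of the positive unipotent subgroup is conjugate to a root element. -/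
theorem good_unipotent {g : GL chevD4.Idx K} (hg : g ∈ twistedD4 K q) (hU : g ∈ chevD4.posUnipotent K)
    (hsq : g * g = 1) (hne : g ≠ 1) : Good' q f g := by
  obtain ⟨a, b, c, q₀, v, rfl, hv⟩ := exists_decomp hU
  have hfix := twisted_fixed f hf h3 hg
  rw [map_mul, sig_Aelt] at hfix
  have hA : Rep (Aelt (a + f c) (b + f a) (c + f b)) (v.add (sigV f v)) := by
    rw [← Aelt_mul]
    have : Aelt a b c * Aelt (f c) (f a) (f b) = q₀ * (sig f q₀)⁻¹ := by
      rw [eq_mul_inv_iff_mul_eq, mul_assoc, hfix, ← mul_assoc, Aelt_sq, one_mul]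
    rw [this]
    exact hv.mul (hv.twist f).inv
  obtain ⟨-, hb, hc⟩ := Aelt_rep_zero hA
  rw [CharTwo.add_eq_zero] at hb hc
  have hc' : c = f (f a) := by rw [hc, hb]
  subst hb hc'
  by_cases ha : a = 0
  · subst ha
    rw [map_zero, map_zero, Aelt_zero, one_mul] at *
    exact good_radical f hf h3 hK hg hv hsq hne
  have hq₀ : q₀ ∈ twistedD4 K q := by
    have := mul_mem (inv_mem (xa_mem f hf a)) hg
    rwa [inv_mul_cancel_left] at this
  have hvf := fix_of_rep f hf h3 hK hq₀ hv
  have hconj : MulAut.conj (Aelt a (f a) (f (f a))) q₀ = q₀⁻¹ := by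
    rw [MulAut.conj_apply, Aelt_inv]
    exact eq_inv_of_mul_eq_one_left (by rwa [mul_assoc])
  have hact := (hv.conjA a (f a) (f (f a))).unique (hconj ▸ hv.inv)
  simp only [V8.ext_iff, actA] at hact
  obtain ⟨-, hC0, -, -, hD0, -, -, -⟩ := hact
  have hB : v.B = 0 := by
    have : a * v.B = 0 := add_eq_left.1 hC0
    exact (mul_eq_zero.1 this).resolve_left ha
  set t := v.C0 / a with ht
  have hC0t : v.C0 = t * a := by rw [ht, div_mul_cancel₀ _ ha]
  have hft : f t = t := by
    have h1 : f a * (f (f t) * f (f a)) + f (f a) * (f t * f a) = 0 := by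
      simp only [hB, mul_zero, add_zero, hvf.hC1, hvf.hC2, hC0t, map_mul] at hD0
      linear_combination hD0
    have h2 : f a * f (f a) * (f (f t) + f t) = 0 := by linear_combination h1
    have h4 := (mul_eq_zero.1 h2).resolve_left (mul_ne_zero (by simpa using ha) (by simpa using ha))
    exact f.injective (CharTwo.add_eq_zero.1 h4)
  have hxb := xb_mem f hf hft
  refine Good'.of_conj f ⟨X 14 t, hxb, rfl⟩ ?_
  set A := Aelt a (f a) (f (f a)) with hAdef
  have hsplit : ∃ q₁ u, MulAut.conj (X 14 t) (A * q₀) = A * q₁ ∧ Rep q₁ u ∧ u.B = 0 ∧ u.C0 = 0 := by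
    refine ⟨MulAut.conj A (X 14 t) * X 14 t * MulAut.conj (X 14 t) q₀, _, ?_,
      (((rep_eB t).conjA a (f a) (f (f a))).mul (rep_eB t)).mul
        (((rep_eB t).mul hv).mul (rep_eB t).inv), ?_, ?_⟩
    · simp only [MulAut.conj_apply, hAdef, Aelt_inv, X_inv, mul_assoc]
      have cX : ∀ y : GL chevD4.Idx K, X 14 t * (X 14 t * y) = y := fun y => by
        rw [← mul_assoc, X_mul, CharTwo.add_self_eq_zero, X_zero, one_mul]
      have cA : ∀ y : GL chevD4.Idx K, Aelt a (f a) (f (f a)) * (Aelt a (f a) (f (f a)) * y) = y := fun y => by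
        rw [← mul_assoc, Aelt_sq, one_mul]
      rw [cX, cA]
    · simp only [V8.add, actA, eB, hB, add_zero]
      linear_combination (2 * t) * CharTwo.two_eq_zero (R := K)
    · simp only [V8.add, actA, eB, hB, add_zero, zero_add, hC0t]
      linear_combination (t * a) * CharTwo.two_eq_zero (R := K)
  obtain ⟨q₁, u, e1, hq₁, huB, huC⟩ := hsplit
  have hg1 : A * q₁ ∈ twistedD4 K q := by
    rw [← e1]; exact conj_mem f hf hK hxb hg
  have hsq1 : (A * q₁) * (A * q₁) = 1 := by rw [← e1, ← map_mul, hsq, map_one]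
  have hne1 : A * q₁ ≠ 1 := by
    rw [← e1]; exact fun h => hne ((MulAut.conj _).injective (h.trans (map_one _).symm))
  rw [e1]
  have hq₁G : q₁ ∈ twistedD4 K q := by
    have := mul_mem (inv_mem (xa_mem f hf a)) hg1
    rwa [inv_mul_cancel_left] at this
  have huf := fix_of_rep f hf h3 hK hq₁G hq₁
  refine Good'.of_conj f ⟨nb, nb_mem f hf hK, rfl⟩ ?_
  obtain ⟨z, rfl⟩ := hq₁
  have hrep : ∃ v2, Rep (MulAut.conj nb (A * (Phi u * Xh z))) v2 := by
    rw [map_mul, nb_Aelt, map_mul, nb_conj 22 (by decide +kernel)]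
    have hphi : Phi u = X 22 u.E * X 17 u.D0 * X 20 u.D1 * X 21 u.D2 := by
      simp [Phi, P1, P2, huB, huC, huf.hC1, huf.hC2, X_zero]
    rw [hphi, map_mul, map_mul, map_mul, nb_conj 23 (by decide +kernel), nb_conj 17 (by decide +kernel),
      nb_conj 20 (by decide +kernel), nb_conj 21 (by decide +kernel)]
    exact ⟨_, (((rep_eC0 _).mul (rep_eC1 _)).mul (rep_eC2 _)).mul
      (((((Rep.central _).mul (rep_eD0 _)).mul (rep_eD1 _)).mul (rep_eD2 _)).mul (rep_eE z))⟩
  obtain ⟨v2, hv2⟩ := hrep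
  exact good_radical f hf h3 hK (conj_mem f hf hK (nb_mem f hf hK) hg1) hv2
    (by rw [← map_mul, hsq1, map_one]) fun h => hne1 ((MulAut.conj _).injective (h.trans (map_one _).symm))

end Cfsg.Agent.H23.D4Inv
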